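import Cfsg.Agent.H440.J4P.VLevel
import Cfsg.Agent.H857.Duad
import Cfsg.Agent.H858.CentS
import Cfsg.Agent.KFacts.J4.Base

/-!
# The centralizer of the duad involution `t` of J4
-/

set_option autoImplicit false

open Cfsg
open scoped Pointwise

noncomputable section

namespace Cfsg.Agent.H440.J4P.Cent

open Cfsg.Agent.J4Type Cfsg.Agent.J4Type.FinalTau Cfsg.Agent.J4Type.FinalRel
open Cfsg.Agent.J4Type.FinalEmb Cfsg.Agent.J4Type.CloseInst
open Cfsg.Agent.J4.Beta Cfsg.Agent.J4.Pres Cfsg.Agent.J4.Invol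
open Cfsg.Agent.H440.J4P.Mats Cfsg.Agent.H440.J4P.VLevel Cfsg.Agent.H440.J4P.Cover
open Cfsg.Agent.BabyM.DuadGen Cfsg.Agent.H858.VK

instance simple_J4 : IsSimpleGroup Cfsg.Spor.J4 := isJ4.1

theorem exists_hypJ : ∃ (t : Cfsg.Spor.J4)
    (Q N M : Subgroup (Subgroup.centralizer ({t} : Set Cfsg.Spor.J4))), Hyp t Q N M :=
  Cfsg.Agent.KFacts.J4.Transport.exists_hyp_of_iso (⟨MulEquiv.refl _⟩ : Spor.IsoJ4 Spor.J4)

/-- The order of the centralizer of `s`. -/
theorem card_cent_s : Nat.card (Subgroup.centralizer ({s} : Set Cfsg.Spor.J4)) = 21799895040 := by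
  obtain ⟨t, Q, N, M, H⟩ := exists_hypJ
  exact Cfsg.Agent.H858.CentS.card_cent_s H

theorem fix_w : ((List.range 2048).all fun w => !(Nat.beq (lin MP w) w) || !(Nat.beq (lin MH w) w) ||
    Nat.beq w 0 || Nat.beq w 1010) = true := by decide +kernel

/-- An automorphism onto the abstract model of the group of type J4. -/
theorem exists_model : ∃ (C : J4Type.Compl Cfsg.Spor.J4) (f : Cfsg.Spor.J4 →* Cfsg.Spor.J4),
    Function.Injective f ∧ (∀ g : M24, f (phi g) = C.φ g) ∧ EJ.map f = C.E hex0 := by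
  obtain ⟨t, Q, N, M, H⟩ := exists_hypJ
  obtain ⟨C, -, -, -⟩ := Cfsg.Agent.H856.Bridge.exists_compl_of_hyp H
  obtain ⟨T, hT⟩ := TauMain.exists_tau C
  obtain ⟨f, hφ, -, hs, -, -⟩ := (FinalTau.Tau.tauFam T (Rel2.relator2 T)).exists_hom
  have hf : Function.Injective f := TauFam.injective hs
  have hB : tetB.card = 4 := by decide +kernel
  exact ⟨T.toCompl, f, hf, hφ, ClosingJ4.map_EJ T.toCompl f hφ hB hs⟩

/-- **The centralizer of `t`.** -/
theorem cent_t {a : Cfsg.Spor.J4} (h : a * tJ = tJ * a) :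
    ∃ v < 2048, ∃ m : M24, (m : Equiv.Perm GolayPt) ∈ duad ∧ a = eJ v * phi m := by
  obtain ⟨C, f, hf, hφ, hE⟩ := exists_model
  have hcard : ({none, some 0} : Finset GolayPt).card = 2 := Cfsg.Agent.H857.Duad.card_base
  have hev : Even ({none, some 0} : Finset GolayPt).card := by rw [hcard]; decide
  have hε : C.ε {none, some 0} ∈ C.E hex0 := C.ε_mem _ hev
  rw [← hE] at hε
  obtain ⟨z, hz, hzε⟩ := hε
  obtain ⟨w, hw, rfl⟩ := exists_eJ hz
  have hcomm : ∀ g : M24, (g : Equiv.Perm GolayPt) ∈ duad → phi g * eJ w * (phi g)⁻¹ = eJ w := by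
    intro g hg
    have h1 : C.φ g ∈ Cfsg.Agent.H857.Duad.KD C := Cfsg.Agent.H857.Duad.mem_KD.2 ⟨g, hg, rfl⟩
    have h2 := Cfsg.Agent.H857.Duad.KD_le C h1
    rw [Subgroup.mem_centralizer_singleton_iff, ← hφ, ← hzε, ← map_mul, ← map_mul] at h2
    rw [mul_inv_eq_iff_eq_mul]
    exact hf h2
  have h1 : lin MP w = w := by
    have h2 := hcomm pM p_mem_duad
    rw [conj_eJ isMat_p] at h2
    exact eJ_inj (lin_lt_of (by decide +kernel) w) hw h2
  have h2 : lin MH w = w := by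
    have h2 := hcomm hM h_mem_duad
    rw [conj_eJ isMat_h] at h2
    exact eJ_inj (lin_lt_of (by decide +kernel) w) hw h2
  have hw1 : w = 0 ∨ w = 1010 := by
    have h3 := fix_w
    rw [List.all_eq_true] at h3
    have h4 := h3 w (List.mem_range.2 hw)
    rw [h1, h2, Nat.beq_refl] at h4
    simpa using h4
  have hw0 : w ≠ 0 := by
    rintro rfl
    rw [eJ_zero, map_one] at hzε
    have h5 := TauMain.φ_ε C Cfsg.Agent.J4.M24Hom.XM (S := {none, some 0}) hev
    rw [← hzε, mul_one, mul_inv_cancel, hzε] at h5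
    have h6 := Cfsg.Agent.H857.Orbits.ε_pair_inj C.toFrame hcard
      (by rw [Finset.card_smul_finset, hcard]) h5
    exact absurd h6 (by decide +kernel)
  have hw2 : w = 1010 := by
    rcases hw1 with h | h
    · exact absurd h hw0
    · exact h
  subst hw2
  have h3 : f a * C.ε {none, some 0} = C.ε {none, some 0} * f a := by
    rw [← hzε, ← map_mul, ← map_mul]
    exact congrArg f h
  obtain ⟨e, he, k, hk, hek⟩ := Cfsg.Agent.H857.Duad.exists_mul C h3
  rw [← hE] at he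
  obtain ⟨e', he', rfl⟩ := he
  obtain ⟨g, hg, rfl⟩ := Cfsg.Agent.H857.Duad.mem_KD.1 hk
  rw [← hφ, ← map_mul] at hek
  obtain ⟨v, hv, rfl⟩ := exists_eJ he'
  exact ⟨v, hv, g, hg, hf hek⟩

end Cfsg.Agent.H440.J4P.Cent
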