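import Cfsg.Agent.H440.J4P.Mats

/-!
# The tests of the parity count for J4
-/

set_option autoImplicit false

namespace Cfsg.Agent.H440.J4P.RepDef

open Cfsg.Agent.Lib.F2MatGroup Cfsg.Agent.H440.J4P.Engine Cfsg.Agent.H440.J4P.Mats
open Cfsg.Agent.H440.J4P.Words Cfsg.Agent.H440.J4P.DataB

/-- entry number `i` of the list -/
def rep (i : ℕ) : ℕ × List ℕ × ℕ := reps.getD i (3, [], 0)

/-- the test -/
def tst (i : ℕ) : Bool :=
  testC 112 55 (base (rep i).1).length (rep i).2.2 x0 BQ (evW 112 LC' (rep i).2.1)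
    (evW 112 LC' (winv (rep i).2.1)) (base (rep i).1)

end Cfsg.Agent.H440.J4P.RepDef
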