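import Cfsg.Agent.H440.J4P.DuadTab
import Cfsg.Agent.H440.J4P.RepDef
import Cfsg.Agent.BabyM.DuadGen

/-!
# The involutions of the stabilizer of a duad

`cover`: every involution of the stabilizer of a duad in `M24` is hit an odd number of times by the conjugates
of three involutions under the elements `g * tau h`.
-/

set_option autoImplicit false

open Cfsg

namespace Cfsg.Agent.H440.J4P.Cover

open Cfsg.Agent.Lib.F2Mat (bz bz_xor bz_true bz_false)
open Cfsg.Agent.Lib.F2MatGroup (evG getG evG_cons evG_nil)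
open Cfsg.Agent.J4.Packed Cfsg.Agent.J4.M24Hom Cfsg.Agent.J4.Nodes
open Cfsg.Agent.H440.J4P.Mats Cfsg.Agent.H440.J4P.Words Cfsg.Agent.H440.J4P.DuadTab
open Cfsg.Agent.H440.J4P.RepDef Cfsg.Agent.BabyM.DuadGen
open Cfsg.Agent.SporadicA.M24Gens (pidx pidx_injective)

noncomputable section

/-- the indicator of a proposition -/
def ind (p : Prop) : ZMod 2 := by classical exact if p then 1 else 0

theorem ind_true {p : Prop} (h : p) : ind p = 1 := by
  unfold ind; exact if_pos h

theorem ind_false {p : Prop} (h : ¬ p) : ind p = 0 := by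
  unfold ind; exact if_neg h

/-! ### Search trees -/

/-- look up a key -/
def find (z : ℕ) : Tr → Option ℕ
  | .nil => none
  | .node k i l r => if z = k then some i else if z ≤ k then find z l else find z r

/-- look up a key, in continuation passing style -/
def findK (z : ℕ) (f : ℕ → Bool) (t : Tr) : Bool :=
  @Tr.rec (fun _ => Bool) false
    (fun k i _ _ ihl ihr => cond (Nat.beq z k) (f i) (cond (Nat.ble z k) ihl ihr)) t

theorem findK_iff {z : ℕ} {f : ℕ → Bool} {t : Tr} (h : findK z f t = true) :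
    ∃ i, find z t = some i ∧ f i = true := by
  induction t with
  | nil => exact absurd h (by simp [findK])
  | node k i l r ihl ihr =>
    have h' : cond (Nat.beq z k) (f i) (cond (Nat.ble z k) (findK z f l) (findK z f r)) = true := h
    rcases hb : Nat.beq z k with _ | _
    · rw [hb, cond_false] at h'
      have hne : z ≠ k := by
        rintro rfl
        rw [Nat.beq_refl] at hb
        exact absurd hb (by decide)
      rcases hc : Nat.ble z k with _ | _
      · rw [hc, cond_false] at h'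
        obtain ⟨j, hj, hj'⟩ := ihr h'
        refine ⟨j, ?_, hj'⟩
        have hlt : ¬ z ≤ k := by
          intro hle
          rw [Nat.ble_eq_true_of_le hle] at hc
          exact absurd hc (by decide)
        rw [find, if_neg hne, if_neg hlt, hj]
      · rw [hc, cond_true] at h'
        obtain ⟨j, hj, hj'⟩ := ihl h'
        refine ⟨j, ?_, hj'⟩
        rw [find, if_neg hne, if_pos (Nat.le_of_ble_eq_true hc), hj]
    · rw [hb, cond_true] at h'
      exact ⟨i, by rw [find, if_pos (Nat.eq_of_beq_eq_true hb)], h'⟩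

/-- the pair occurs in the tree -/
def Mem (z i : ℕ) : Tr → Prop
  | .nil => False
  | .node k j l r => (z = k ∧ i = j) ∨ Mem z i l ∨ Mem z i r

theorem mem_of_find {z i : ℕ} {t : Tr} (h : find z t = some i) : Mem z i t := by
  induction t with
  | nil => exact absurd h (by simp [find])
  | node k j l r ihl ihr =>
    rw [find] at h
    split_ifs at h with h1 h2
    · exact Or.inl ⟨h1, (Option.some.inj h).symm⟩
    · exact Or.inr (Or.inl (ihl h))
    · exact Or.inr (Or.inr (ihr h))

/-- all the pairs satisfy `f` -/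
def all (f : ℕ → ℕ → Bool) (t : Tr) : Bool :=
  @Tr.rec (fun _ => Bool) true (fun k i _ _ ihl ihr => cond (f k i) (cond ihl ihr false) false) t

theorem all_sound {f : ℕ → ℕ → Bool} {t : Tr} (h : all f t = true) {z i : ℕ} (hm : Mem z i t) :
    f z i = true := by
  induction t with
  | nil => exact absurd hm (by simp [Mem])
  | node k j l r ihl ihr =>
    have h' : cond (f k j) (cond (all f l) (all f r) false) false = true := h
    rcases hb : f k j with _ | _
    · rw [hb] at h'; exact absurd h' Bool.false_ne_true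
    · rw [hb, cond_true] at h'
      rcases hl : all f l with _ | _
      · rw [hl] at h'; exact absurd h' Bool.false_ne_true
      · rw [hl, cond_true] at h'
        rcases hm with ⟨rfl, rfl⟩ | hm | hm
        · exact hb
        · exact ihl hl hm
        · exact ihr h' hm

/-- the key with a given number -/
def get (i : ℕ) (t : Tr) : ℕ :=
  @Tr.rec (fun _ => ℕ) (nat_lit 0)
    (fun k j _ _ ihl ihr => cond (Nat.beq i j) k (cond (Nat.ble i j) ihl ihr)) t

/-- look up, after evaluation of the key -/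
def findF (z : ℕ) (t : Tr) : Bool := force z fun z => findK z (fun _ => true) t

theorem findF_iff {z : ℕ} {t : Tr} (h : findF z t = true) : ∃ i, find z t = some i := by
  unfold findF at h
  rw [force_eq] at h
  obtain ⟨i, hi, -⟩ := findK_iff h
  exact ⟨i, hi⟩

/-! ### Walks -/

/-- conjugation -/
def cj (ai a z : ℕ) : ℕ := pmul (pmul ai z) a

theorem rep_cj {ai a z : ℕ} {g x : M24} (hi : Rep ai g⁻¹) (ha : Rep a g) (hz : Rep z x) :
    Rep (cj ai a z) (g⁻¹ * x * g) := rep_mul (rep_mul hi hz) ha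

/-- `n` conjugates of `z`; the numbers of the keys are collected in `acc` -/
def walk (t : Tr) (ai a n : ℕ) : ℕ → ℕ → (ℕ → Bool) → Bool :=
  @Nat.rec (fun _ => ℕ → ℕ → (ℕ → Bool) → Bool) (fun _ acc k => k acc)
    (fun _ ih z acc k => findK z (fun i => force (Nat.xor acc (Nat.shiftLeft (nat_lit 1) i)) fun acc =>
      force (cj ai a z) fun z => ih z acc k) t) n

theorem bz_acc (acc i j : ℕ) : bz ((Nat.xor acc (Nat.shiftLeft 1 i)).testBit j) =
    bz (acc.testBit j) + ind (some i = some j) := by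
  have h : (Nat.xor acc (Nat.shiftLeft 1 i)).testBit j = (acc.testBit j ^^ decide (i = j)) := by
    have h1 : Nat.xor acc (Nat.shiftLeft 1 i) = acc ^^^ (1 <<< i) := rfl
    rw [h1, Nat.testBit_xor, Nat.one_shiftLeft, Nat.testBit_two_pow]
  rw [h, bz_xor]
  congr 1
  by_cases hij : i = j
  · rw [ind_true (by rw [hij]), decide_eq_true hij, bz_true]
  · rw [ind_false (by rw [Option.some.injEq]; exact hij), decide_eq_false hij, bz_false]

theorem walk_sound {t : Tr} {ai a : ℕ} (n : ℕ) {z acc : ℕ} {k : ℕ → Bool}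
    (h : walk t ai a n z acc k = true) :
    ∃ acc', k acc' = true ∧ (∀ m < n, ∃ i, find ((cj ai a)^[m] z) t = some i) ∧
      ∀ i, bz (acc'.testBit i) = bz (acc.testBit i) +
        ∑ m ∈ Finset.range n, ind (find ((cj ai a)^[m] z) t = some i) := by
  induction n generalizing z acc with
  | zero => exact ⟨acc, h, fun m hm => absurd hm (Nat.not_lt_zero m), fun i => by simp⟩
  | succ n ih =>
    have h' : findK z (fun i => force (Nat.xor acc (Nat.shiftLeft 1 i)) fun acc =>
      force (cj ai a z) fun z => walk t ai a n z acc k) t = true := h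
    obtain ⟨i0, hi0, h1⟩ := findK_iff h'
    rw [force_eq, force_eq] at h1
    obtain ⟨acc', hk, hf, hs⟩ := ih h1
    refine ⟨acc', hk, ?_, ?_⟩
    · intro m hm
      rcases m with _ | m
      · exact ⟨i0, hi0⟩
      · rw [Function.iterate_succ_apply]
        exact hf m (by omega)
    · intro i
      rw [hs i, bz_acc, Finset.sum_range_succ' _ n, Function.iterate_zero_apply, hi0]
      simp only [Function.iterate_succ_apply]
      ring

/-- walks in two directions -/
def walk2 (t : Tr) (bi b ai a n1 n : ℕ) : ℕ → ℕ → (ℕ → Bool) → Bool :=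
  @Nat.rec (fun _ => ℕ → ℕ → (ℕ → Bool) → Bool) (fun _ acc k => k acc)
    (fun _ ih z acc k => walk t ai a n1 z acc fun acc => force (cj bi b z) fun z => ih z acc k) n

theorem walk2_sound {t : Tr} {bi b ai a n1 : ℕ} (n : ℕ) {z acc : ℕ} {k : ℕ → Bool}
    (h : walk2 t bi b ai a n1 n z acc k = true) :
    ∃ acc', k acc' = true ∧
      (∀ j < n, ∀ m < n1, ∃ i, find ((cj ai a)^[m] ((cj bi b)^[j] z)) t = some i) ∧
      ∀ i, bz (acc'.testBit i) = bz (acc.testBit i) + ∑ j ∈ Finset.range n,
        ∑ m ∈ Finset.range n1, ind (find ((cj ai a)^[m] ((cj bi b)^[j] z)) t = some i) := by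
  induction n generalizing z acc with
  | zero => exact ⟨acc, h, fun m hm => absurd hm (Nat.not_lt_zero m), fun i => by simp⟩
  | succ n ih =>
    have h' : walk t ai a n1 z acc (fun acc => force (cj bi b z) fun z =>
      walk2 t bi b ai a n1 n z acc k) = true := h
    obtain ⟨acc1, h1, hf1, hs1⟩ := walk_sound n1 h'
    rw [force_eq] at h1
    obtain ⟨acc', hk, hf, hs⟩ := ih h1
    refine ⟨acc', hk, ?_, ?_⟩
    · intro j hj m hm
      rcases j with _ | j
      · exact hf1 m hm
      · rw [Function.iterate_succ_apply]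
        exact hf j (by omega) m hm
    · intro i
      rw [hs i, hs1 i, Finset.sum_range_succ' _ n, Function.iterate_zero_apply]
      simp only [Function.iterate_succ_apply]
      ring

/-- walks with several starting points -/
def walk3 (t : Tr) (bi b ai a n1 n : ℕ) (f : ℕ → ℕ) (N : ℕ) : ℕ → (ℕ → Bool) → Bool :=
  @Nat.rec (fun _ => ℕ → (ℕ → Bool) → Bool) (fun acc k => k acc)
    (fun m ih acc k => force (f m) fun z => walk2 t bi b ai a n1 n z acc fun acc => ih acc k) N

theorem walk3_sound {t : Tr} {bi b ai a n1 n : ℕ} {f : ℕ → ℕ} (N : ℕ) {acc : ℕ} {k : ℕ → Bool}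
    (h : walk3 t bi b ai a n1 n f N acc k = true) :
    ∃ acc', k acc' = true ∧
      (∀ r < N, ∀ j < n, ∀ m < n1, ∃ i, find ((cj ai a)^[m] ((cj bi b)^[j] (f r))) t = some i) ∧
      ∀ i, bz (acc'.testBit i) = bz (acc.testBit i) + ∑ r ∈ Finset.range N,
        ∑ j ∈ Finset.range n, ∑ m ∈ Finset.range n1,
          ind (find ((cj ai a)^[m] ((cj bi b)^[j] (f r))) t = some i) := by
  induction N generalizing acc with
  | zero => exact ⟨acc, h, fun m hm => absurd hm (Nat.not_lt_zero m), fun i => by simp⟩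
  | succ N ih =>
    have h' : force (f N) (fun z => walk2 t bi b ai a n1 n z acc fun acc =>
      walk3 t bi b ai a n1 n f N acc k) = true := h
    rw [force_eq] at h'
    obtain ⟨acc1, h1, hf1, hs1⟩ := walk2_sound n h'
    obtain ⟨acc', hk, hf, hs⟩ := ih h1
    refine ⟨acc', hk, ?_, ?_⟩
    · intro r hr
      rcases Nat.lt_succ_iff_lt_or_eq.1 hr with hr | rfl
      · exact hf r hr
      · exact hf1
    · intro i
      rw [hs i, hs1 i, Finset.sum_range_succ]
      ring

/-! ### Packed elements -/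

/-- packed product of a word -/
def evP (L : List ℕ) : List ℕ → ℕ
  | [] => ID
  | a :: w => pmul (L.getD a ID) (evP L w)

theorem rep_evP {L : List ℕ} {LG : List M24} (h : ∀ i, Rep (L.getD i ID) (getG LG i))
    (w : List ℕ) : Rep (evP L w) (evG LG w) := by
  induction w with
  | nil => exact rep_one
  | cons a w ih => exact rep_mul (h a) ih

theorem rep_p : Rep PP pM := rep_of_word wp (by decide +kernel)
theorem rep_pi : Rep PPi pM⁻¹ := rep_inv rep_p (by decide +kernel)
theorem rep_h : Rep PH hM := rep_of_word wh (by decide +kernel)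

/-- packed letters -/
def LP : List ℕ := [PP, PPi, PH]

theorem rep_LP (i : ℕ) : Rep (LP.getD i ID) (getG LD i) := by
  match i with
  | 0 => exact rep_p
  | 1 => exact rep_pi
  | 2 => exact rep_h
  | n + 3 => exact rep_one

theorem rep_word' (w : List ℕ) : Rep (evP LP w) (evG LD w) := rep_evP rep_LP w

theorem rep_q : Rep PQ qM := by
  have h : evP LP wq = PQ := by decide +kernel
  rw [← h]
  exact rep_word' wq

theorem rep_qi : Rep PQi qM⁻¹ := rep_inv rep_q (by decide +kernel)

/-- the starting points -/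
def stx (i : ℕ) : ℕ :=
  pmul (pmul (evP LP (winv (rep i).2.1)) (evP LP (wX.getD (rep i).1 []))) (evP LP (rep i).2.1)

theorem rep_lt : ((List.range 54).all fun i => (rep i).2.1.all fun a => Nat.blt a 3) = true := by
  decide +kernel

theorem rep_lt' (i : ℕ) (hi : i < 54) : ∀ a ∈ (rep i).2.1, a < 3 := by
  have h := rep_lt
  rw [List.all_eq_true] at h
  have h1 := h i (List.mem_range.2 hi)
  rw [List.all_eq_true] at h1
  intro a ha
  have h2 := h1 a ha
  rwa [Nat.blt_eq] at h2

theorem rep_cls : ∀ i < 53, (rep i).1 < 3 := by decide +kernel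

theorem rep_stx (i : ℕ) (hi : i < 53) :
    Rep (stx i) ((evG LD (rep i).2.1)⁻¹ * mX (rep i).1 * evG LD (rep i).2.1) := by
  unfold stx
  have h1 := rep_word' (winv (rep i).2.1)
  rw [evG_winv _ (rep_lt' i (by omega))] at h1
  have h2 : mX (rep i).1 = evG LD (wX.getD (rep i).1 []) := by
    unfold mX
    rw [if_pos (rep_cls i hi)]
  rw [h2]
  exact rep_mul (rep_mul h1 (rep_word' _)) (rep_word' _)

/-- The representation is unique. -/
theorem rep_unique {n n' : ℕ} {g : M24} (h : Rep n g) (h' : Rep n' g) (hn : n < 2 ^ 192)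
    (hn' : n' < 2 ^ 192) : n = n' := by
  apply Nat.eq_of_testBit_eq
  intro k
  rcases Nat.lt_or_ge k 192 with hk | hk
  · have e : ∀ n : ℕ, n.testBit k = (getb n (k / 8)).testBit (k % 8) := by
      intro n
      rw [testBit_getb, Nat.div_add_mod, decide_eq_true (Nat.mod_lt k (by norm_num)),
        Bool.and_true]
    rw [e n, e n']
    obtain ⟨j, hj, h1, h2⟩ := h (k / 8) (by omega)
    obtain ⟨j', hj', h3, h4⟩ := h' (k / 8) (by omega)
    have h5 : j = j' := lab_inj j hj j' hj' (h2.symm.trans h4)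
    rw [h1, h3, h5]
  · have h192 : (2 : ℕ) ^ 192 ≤ 2 ^ k := Nat.pow_le_pow_right (by norm_num) hk
    rw [Nat.testBit_lt_two_pow (lt_of_lt_of_le hn h192),
      Nat.testBit_lt_two_pow (lt_of_lt_of_le hn' h192)]

/-! ### The checks -/

/-- the whole tree -/
def T : Tr := D

theorem keys_ok : all (fun z i => cond (Nat.beq (get i T) z)
    (cond (Nat.blt z (Nat.pow 2 192)) (Nat.blt i 2871) false) false) T = true := by decide +kernel

theorem closed_ok : all (fun z _ => cond (findF (cj PPi PP z) T)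
    (cond (findF (cj PP PPi z) T) (findF (cj PH PH z) T) false) false) T = true := by
  decide +kernel

/-- `acc = 2 ^ N - 1` -/
def fin1 (N acc : ℕ) : Bool := Nat.beq (Nat.succ acc) (Nat.pow 2 N)

theorem fin1_bit {N acc i : ℕ} (h : fin1 N acc = true) (hi : i < N) : acc.testBit i = true := by
  have h1 := Nat.eq_of_beq_eq_true h
  have h2 : acc + 1 = 2 ^ N := h1
  have h3 : acc = 2 ^ N - 1 := by omega
  rw [h3, Nat.testBit_two_pow_sub_one, decide_eq_true hi]

theorem cover_ok : walk3 T PQi PQ PPi PP 11 5 stx 53 0 (fin1 2871) = true := by decide +kernel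

theorem of_find {z i : ℕ} (h : find z T = some i) : get i T = z ∧ z < 2 ^ 192 ∧ i < 2871 := by
  have h1 := all_sound keys_ok (mem_of_find h)
  rcases ha : Nat.beq (get i T) z with _ | _
  · rw [ha] at h1; exact absurd h1 Bool.false_ne_true
  · rw [ha, cond_true] at h1
    rcases hb : Nat.blt z (Nat.pow 2 192) with _ | _
    · rw [hb] at h1; exact absurd h1 Bool.false_ne_true
    · rw [hb, cond_true] at h1
      refine ⟨Nat.eq_of_beq_eq_true ha, ?_, ?_⟩
      · rw [Nat.blt_eq] at hb; exact hb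
      · rwa [Nat.blt_eq] at h1

/-- `m` is one of the elements of the table -/
def DInv (m : M24) : Prop := ∃ z i, find z T = some i ∧ Rep z m

theorem dinv_cj {m : M24} (h : DInv m) :
    DInv (pM⁻¹ * m * pM) ∧ DInv (pM * m * pM⁻¹) ∧ DInv (hM⁻¹ * m * hM) := by
  obtain ⟨z, i, hz, hr⟩ := h
  have h1 := all_sound closed_ok (mem_of_find hz)
  rcases ha : findF (cj PPi PP z) T with _ | _
  · rw [ha] at h1; exact absurd h1 Bool.false_ne_true
  · rw [ha, cond_true] at h1
    rcases hb : findF (cj PP PPi z) T with _ | _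
    · rw [hb] at h1; exact absurd h1 Bool.false_ne_true
    · rw [hb, cond_true] at h1
      obtain ⟨i1, hi1⟩ := findF_iff ha
      obtain ⟨i2, hi2⟩ := findF_iff hb
      obtain ⟨i3, hi3⟩ := findF_iff h1
      refine ⟨⟨_, i1, hi1, rep_cj rep_pi rep_p hr⟩, ⟨_, i2, hi2, ?_⟩, ⟨_, i3, hi3, ?_⟩⟩
      · exact rep_mul (rep_mul rep_p hr) rep_pi
      · refine rep_cj ?_ rep_h hr
        have : hM⁻¹ = hM := inv_eq_of_mul_eq_one_left hM_sq
        rw [this]
        exact rep_h

theorem dinv_conj {c : M24} (hc : c ∈ Subgroup.closure ({pM, hM} : Set M24)) :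
    (∀ m, DInv m → DInv (c⁻¹ * m * c)) ∧ ∀ m, DInv m → DInv (c * m * c⁻¹) := by
  induction hc using Subgroup.closure_induction with
  | mem c hc =>
    rcases hc with rfl | rfl
    · exact ⟨fun m h => (dinv_cj h).1, fun m h => (dinv_cj h).2.1⟩
    · refine ⟨fun m h => (dinv_cj h).2.2, fun m h => ?_⟩
      have := (dinv_cj h).2.2
      have e : hM⁻¹ = hM := inv_eq_of_mul_eq_one_left hM_sq
      rw [e] at this ⊢
      exact this
  | one => simp
  | mul x y _ _ hx hy =>
    refine ⟨fun m h => ?_, fun m h => ?_⟩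
    · have := hy.1 _ (hx.1 m h)
      have e : (x * y)⁻¹ * m * (x * y) = y⁻¹ * (x⁻¹ * m * x) * y := by group
      rwa [e]
    · have := hx.2 _ (hy.2 m h)
      have e : x * y * m * (x * y)⁻¹ = x * (y * m * y⁻¹) * x⁻¹ := by group
      rwa [e]
  | inv x _ hx =>
    refine ⟨fun m h => ?_, fun m h => ?_⟩
    · rw [inv_inv]; exact hx.2 m h
    · rw [inv_inv]; exact hx.1 m h

/-! ### The stabilizer of the duad -/

theorem apply_lab {n : ℕ} {g : M24} (h : Rep n g⁻¹) {i : ℕ} (hi : i < 24) :
    ∃ j < 24, getb n i = 8 * j ∧ (g : Equiv.Perm GolayPt) (lab i) = lab j := by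
  obtain ⟨j, hj, h1, h2⟩ := h i hi
  rw [inv_inv] at h2
  exact ⟨j, hj, h1, h2⟩

theorem tab_of {n : ℕ} {g : M24} (h : Rep n g⁻¹) {tb : List ℕ}
    (ht : ∀ i < 24, ∀ j < 24, getb n i = 8 * j → pidx (lab j) = tb.getD (pidx (lab i)) 0)
    (x : GolayPt) : pidx ((g : Equiv.Perm GolayPt) x) = tb.getD (pidx x) 0 := by
  obtain ⟨i, hi, rfl⟩ := lab_surj x
  obtain ⟨j, hj, h1, h2⟩ := apply_lab h hi
  rw [h2]
  exact ht i hi j hj h1

theorem hp (x : GolayPt) : pidx ((pM : Equiv.Perm GolayPt) x) = tabP.getD (pidx x) 0 :=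
  tab_of rep_pi (by decide +kernel) x

theorem hh (x : GolayPt) : pidx ((hM : Equiv.Perm GolayPt) x) = tabH.getD (pidx x) 0 := by
  refine tab_of (n := PH) ?_ (by decide +kernel) x
  have e : hM⁻¹ = hM := inv_eq_of_mul_eq_one_left hM_sq
  rw [e]
  exact rep_h

theorem mem_closure {c : M24} (hc : (c : Equiv.Perm GolayPt) ∈ duad) :
    c ∈ Subgroup.closure ({pM, hM} : Set M24) := by
  have h : (Subgroup.closure ({pM, hM} : Set M24)).map M24.subtype = duad := by
    rw [MonoidHom.map_closure, Set.image_pair]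
    exact closure_eq hp hh
  rw [← h] at hc
  obtain ⟨w, hw, hwz⟩ := hc
  have : w = c := Subtype.ext hwz
  rwa [← this]

theorem closure_le_duad {c : M24} (hc : c ∈ Subgroup.closure ({pM, hM} : Set M24)) :
    (c : Equiv.Perm GolayPt) ∈ duad := by
  have h : (Subgroup.closure ({pM, hM} : Set M24)).map M24.subtype = duad := by
    rw [MonoidHom.map_closure, Set.image_pair]
    exact closure_eq hp hh
  rw [← h]
  exact ⟨c, hc, rfl⟩

theorem p_mem_duad : (pM : Equiv.Perm GolayPt) ∈ duad :=
  closure_le_duad (Subgroup.subset_closure (Or.inl rfl))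

theorem h_mem_duad : (hM : Equiv.Perm GolayPt) ∈ duad :=
  closure_le_duad (Subgroup.subset_closure (Or.inr rfl))

/-- letters of the inverse word -/
def invw (w : List ℕ) : List ℕ :=
  (w.map fun i => cond (Nat.beq i 0) 0 (cond (Nat.beq i 1) 2 1)).reverse

theorem XM_sq : XM * XM = 1 := by
  have h : wordG [0, 0] = wordG [] := Cfsg.Agent.H858.M24Norm.wordG_eq (by decide +kernel)
  simpa [wordG, letG0] using h

theorem wordG_invw (w : List ℕ) : wordG (invw w) = (wordG w)⁻¹ := by
  induction w with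
  | nil => exact inv_one.symm
  | cons i w ih =>
    have e : invw (i :: w) = invw w ++ [cond (Nat.beq i 0) 0 (cond (Nat.beq i 1) 2 1)] := by
      unfold invw
      rw [List.map_cons, List.reverse_cons]
    rw [e, Cfsg.Agent.H858.M24Norm.wordG_append, ih, wordG.eq_2 i w, mul_inv_rev]
    have h1 : ∀ a, wordG [a] = letG a := fun a => mul_one _
    rw [h1]
    have h2 : letG (cond (Nat.beq i 0) 0 (cond (Nat.beq i 1) 2 1)) = (letG i)⁻¹ := by
      match i with
      | 0 => exact eq_inv_of_mul_eq_one_left XM_sq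
      | 1 => rfl
      | n + 2 =>
        show YM = (YM⁻¹)⁻¹
        rw [inv_inv]
    rw [h2]

/-- check of an entry of the table -/
def entOk (W : ℕ) (e : ℕ × ℕ × List ℕ) : Bool :=
  force (wordP e.2.2) fun a => cond (Nat.beq (getb a e.1) 184)
    (cond (Nat.beq (getb a e.2.1) 64) (findF (cj (wordP (invw e.2.2)) a W) T) false) false

/-- check of the table -/
def tabOk (W : ℕ) (L : List (ℕ × ℕ × List ℕ)) : Bool :=
  (L.all (entOk W)) && (List.range 24).all fun i => (List.range 24).all fun j =>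
    Nat.beq i j || !((Nat.beq (getb W i) (8 * i) || Nat.beq (getb W i) (8 * j)) &&
      (Nat.beq (getb W j) (8 * i) || Nat.beq (getb W j) (8 * j))) ||
      L.any fun e => (Nat.beq e.1 i && Nat.beq e.2.1 j) || (Nat.beq e.1 j && Nat.beq e.2.1 i)

theorem lab23 : lab 23 = none := by decide +kernel
theorem lab8 : lab 8 = some 0 := by decide +kernel

theorem dinv_aux {W : ℕ} {L : List (ℕ × ℕ × List ℕ)} (hL : tabOk W L = true) {P u g : M24}
    (hW : Rep W P) (hud : (u : Equiv.Perm GolayPt) ∈ duad) (hg : g * u * g⁻¹ = P) : DInv u := by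
  obtain ⟨i, hi, hli⟩ := lab_surj ((g : Equiv.Perm GolayPt) none)
  obtain ⟨j, hj, hlj⟩ := lab_surj ((g : Equiv.Perm GolayPt) (some 0))
  have hij : i ≠ j := by
    rintro rfl
    have := (g : Equiv.Perm GolayPt).injective (hli.symm.trans hlj)
    exact absurd this (by simp)
  have hui := inv_mem hud
  have hPinv : ∀ x, ((P⁻¹ : M24) : Equiv.Perm GolayPt) ((g : Equiv.Perm GolayPt) x) =
      (g : Equiv.Perm GolayPt) ((u : Equiv.Perm GolayPt)⁻¹ x) := by
    intro x
    have e : P⁻¹ * g = g * u⁻¹ := by rw [← hg]; group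
    have e2 := congrArg (fun z : M24 => (z : Equiv.Perm GolayPt) x) e
    simpa [Equiv.Perm.mul_apply] using e2
  have hPi : ((P⁻¹ : M24) : Equiv.Perm GolayPt) (lab i) = lab i ∨
      ((P⁻¹ : M24) : Equiv.Perm GolayPt) (lab i) = lab j := by
    rw [hli, hlj, hPinv]
    rcases hui.2 with ⟨h1, -⟩ | ⟨h1, -⟩
    · left; rw [h1]
    · right; rw [h1]
  have hPj : ((P⁻¹ : M24) : Equiv.Perm GolayPt) (lab j) = lab i ∨
      ((P⁻¹ : M24) : Equiv.Perm GolayPt) (lab j) = lab j := by
    rw [hli, hlj, hPinv]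
    rcases hui.2 with ⟨-, h1⟩ | ⟨-, h1⟩
    · right; rw [h1]
    · left; rw [h1]
  obtain ⟨i', hi', hbi, hci⟩ := hW i hi
  obtain ⟨j', hj', hbj, hcj⟩ := hW j hj
  have hi'' : i' = i ∨ i' = j := by
    rw [hci] at hPi
    exact hPi.imp (lab_inj i' hi' i hi) (lab_inj i' hi' j hj)
  have hj'' : j' = i ∨ j' = j := by
    rw [hcj] at hPj
    exact hPj.imp (lab_inj j' hj' i hi) (lab_inj j' hj' j hj)
  unfold tabOk at hL
  rw [Bool.and_eq_true, List.all_eq_true, List.all_eq_true] at hL
  obtain ⟨hL1, hL2⟩ := hL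
  have h1 := hL2 i (List.mem_range.2 hi)
  rw [List.all_eq_true] at h1
  have h2 := h1 j (List.mem_range.2 hj)
  rw [Bool.or_eq_true, Bool.or_eq_true, Nat.beq_eq, Bool.not_eq_true', List.any_eq_true] at h2
  rcases h2 with (h2 | h2) | h2
  · exact absurd h2 hij
  · exfalso
    have h3 : ((Nat.beq (getb W i) (8 * i) || Nat.beq (getb W i) (8 * j)) &&
      (Nat.beq (getb W j) (8 * i) || Nat.beq (getb W j) (8 * j))) = true := by
      simp only [Bool.and_eq_true, Bool.or_eq_true, Nat.beq_eq, hbi, hbj]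
      refine ⟨hi''.imp ?_ ?_, hj''.imp ?_ ?_⟩ <;> rintro rfl <;> rfl
    rw [h3] at h2
    exact absurd h2 (by decide)
  · obtain ⟨e, he, h3⟩ := h2
    have h4 := hL1 e he
    unfold entOk at h4
    rw [force_eq] at h4
    rcases ha : Nat.beq (getb (wordP e.2.2) e.1) 184 with _ | _
    · rw [ha] at h4; exact absurd h4 Bool.false_ne_true
    rw [ha, cond_true] at h4
    rcases hb : Nat.beq (getb (wordP e.2.2) e.2.1) 64 with _ | _
    · rw [hb] at h4; exact absurd h4 Bool.false_ne_true
    rw [hb, cond_true] at h4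
    obtain ⟨k, hk⟩ := findF_iff h4
    have hr := rep_word e.2.2
    have hr' : Rep (wordP (invw e.2.2)) (wordG e.2.2)⁻¹ := by
      rw [← wordG_invw]; exact rep_word _
    generalize wordG e.2.2 = c at hr hr'
    have hD : DInv (c⁻¹ * P * c) := ⟨_, k, hk, rep_cj hr' hr hW⟩
    have he1 : e.1 < 24 ∧ e.2.1 < 24 := by
      simp only [Bool.or_eq_true, Bool.and_eq_true, Nat.beq_eq] at h3
      omega
    have h5 : ((c⁻¹ : M24) : Equiv.Perm GolayPt) (lab e.1) = none := by
      obtain ⟨l, hl, h6, h7⟩ := hr e.1 he1.1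
      rw [Nat.eq_of_beq_eq_true ha] at h6
      have : l = 23 := by omega
      rw [h7, this, lab23]
    have h8 : ((c⁻¹ : M24) : Equiv.Perm GolayPt) (lab e.2.1) = some 0 := by
      obtain ⟨l, hl, h6, h7⟩ := hr e.2.1 he1.2
      rw [Nat.eq_of_beq_eq_true hb] at h6
      have : l = 8 := by omega
      rw [h7, this, lab8]
    have hcd : ((c⁻¹ * g : M24) : Equiv.Perm GolayPt) ∈ duad := by
      refine ⟨(c⁻¹ * g).2, ?_⟩
      rw [Subgroup.coe_mul, Equiv.Perm.mul_apply, Equiv.Perm.mul_apply, ← hli, ← hlj]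
      simp only [Bool.or_eq_true, Bool.and_eq_true, Nat.beq_eq] at h3
      rcases h3 with ⟨rfl, rfl⟩ | ⟨rfl, rfl⟩
      · exact Or.inl ⟨h5, h8⟩
      · exact Or.inr ⟨h8, h5⟩
    have h9 := (dinv_conj (mem_closure hcd)).1 _ hD
    have e1 : (c⁻¹ * g)⁻¹ * (c⁻¹ * P * c) * (c⁻¹ * g) = u := by
      rw [← hg]; group
    rwa [e1] at h9

theorem tab1_ok : tabOk (wordP Cfsg.Agent.J4.Classes.w1) T1 = true := by decide +kernel

theorem tab2_ok : tabOk PX T2 = true := by decide +kernel

theorem evG_eq_wordG (w : List ℕ) (hw : ∀ i ∈ w, i < 3) :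
    evG [XM, YM, YM⁻¹] w = wordG w := by
  induction w with
  | nil => rfl
  | cons i w ih =>
    rw [evG_cons, ih fun j hj => hw j (List.mem_cons_of_mem _ hj), wordG]
    congr 1
    match i, hw i (List.mem_cons_self ..) with
    | 0, _ => rfl
    | 1, _ => rfl
    | 2, _ => rfl

theorem el_P2 : Cfsg.Agent.SporadicStructure.M24El.el Cfsg.Agent.J4.M24InvolData.P2 = XM := by
  apply Subtype.ext
  rw [Cfsg.Agent.SporadicStructure.M24El.coe_el Cfsg.Agent.J4.M24Invol.ok_P2]
  ext1 p
  rw [Cfsg.Agent.SporadicA.GolayPerm.permOf_apply]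
  revert p
  decide +kernel

/-- Every involution of the stabilizer of the duad is in the table. -/
theorem dinv_of {u : M24} (hu : u * u = 1) (h1 : u ≠ 1) (hud : (u : Equiv.Perm GolayPt) ∈ duad) :
    DInv u := by
  obtain ⟨g, hg | hg⟩ := Cfsg.Agent.J4.M24Invol.invol_conj u hu h1
  · refine dinv_aux tab1_ok ?_ hud hg
    rw [Cfsg.Agent.J4.Classes.el_P1, evG_eq_wordG _ (by decide)]
    exact rep_word _
  · refine dinv_aux tab2_ok ?_ hud hg
    rw [el_P2]
    exact rep_X

/-! ### The multiplicities -/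

theorem rep_iter {ai a z : ℕ} {g x : M24} (hi : Rep ai g⁻¹) (ha : Rep a g) (hz : Rep z x) (n : ℕ) :
    Rep ((cj ai a)^[n] z) ((g ^ n)⁻¹ * x * g ^ n) := by
  induction n with
  | zero => simpa using hz
  | succ n ih =>
    rw [Function.iterate_succ_apply']
    have h := rep_cj hi ha ih
    have e : g⁻¹ * ((g ^ n)⁻¹ * x * g ^ n) * g = (g ^ (n + 1))⁻¹ * x * g ^ (n + 1) := by
      rw [pow_succ, mul_inv_rev]; simp only [mul_assoc]
    rwa [e] at h

theorem sum_range_mul {M : Type*} [AddCommMonoid M] (H C : ℕ) (F : ℕ → M) :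
    ∑ s ∈ Finset.range (H * C), F s =
      ∑ c ∈ Finset.range C, ∑ h ∈ Finset.range H, F (h + H * c) := by
  induction C with
  | zero => simp
  | succ C ih =>
    rw [Nat.mul_succ, Finset.sum_range_add, ih, Finset.sum_range_succ]
    congr 1
    exact Finset.sum_congr rfl fun h _ => by rw [Nat.add_comm]

/-- **Odd multiplicities.** -/
theorem cover {m : M24} (hmd : (m : Equiv.Perm GolayPt) ∈ duad) (hm : m * m = 1) (hm1 : m ≠ 1) :
    ∑ r ∈ Finset.range 53, ∑ h ∈ Finset.range 55, ind ((evG LD (rep r).2.1 * tau h)⁻¹ *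
      mX (rep r).1 * (evG LD (rep r).2.1 * tau h) = m) = 1 := by
  obtain ⟨z, i, hz, hr⟩ := dinv_of hm hm1 hmd
  obtain ⟨hz1, hz2, hz3⟩ := of_find hz
  obtain ⟨acc, hk, hf, hs⟩ := walk3_sound 53 cover_ok
  have h1 := hs i
  rw [fin1_bit hk hz3, bz_true, Nat.zero_testBit, bz_false, zero_add] at h1
  rw [h1]
  refine Finset.sum_congr rfl fun r hr1 => ?_
  have hr2 := Finset.mem_range.1 hr1
  have h55 : (55 : ℕ) = 11 * 5 := by norm_num
  rw [h55, sum_range_mul]
  refine Finset.sum_congr rfl fun j hj => ?_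
  refine Finset.sum_congr rfl fun k hk => ?_
  have hj2 := Finset.mem_range.1 hj
  have hk2 := Finset.mem_range.1 hk
  have ht : tau (k + 11 * j) = qM ^ j * pM ^ k := by
    unfold tau
    rw [Nat.add_mul_div_left _ _ (by norm_num), Nat.div_eq_of_lt hk2, Nat.zero_add,
      Nat.add_mul_mod_self_left, Nat.mod_eq_of_lt hk2]
  rw [ht]
  have hrep := rep_iter rep_pi rep_p (rep_iter rep_qi rep_q (rep_stx r hr2) j) k
  have e : (pM ^ k)⁻¹ * ((qM ^ j)⁻¹ * ((evG LD (rep r).2.1)⁻¹ * mX (rep r).1 *
      evG LD (rep r).2.1) * qM ^ j) * pM ^ k = (evG LD (rep r).2.1 * (qM ^ j * pM ^ k))⁻¹ *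
      mX (rep r).1 * (evG LD (rep r).2.1 * (qM ^ j * pM ^ k)) := by group
  rw [e] at hrep
  obtain ⟨i', hi'⟩ := hf r hr2 j hj2 k hk2
  obtain ⟨hw1, hw2, -⟩ := of_find hi'
  have hiff : (evG LD (rep r).2.1 * (qM ^ j * pM ^ k))⁻¹ * mX (rep r).1 *
      (evG LD (rep r).2.1 * (qM ^ j * pM ^ k)) = m ↔
      find ((cj PPi PP)^[k] ((cj PQi PQ)^[j] (stx r))) T = some i := by
    constructor
    · intro hE
      rw [hE] at hrep
      rw [rep_unique hrep hr hw2 hz2]
      exact hz
    · intro hE
      rw [hi', Option.some.injEq] at hE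
      subst hE
      rw [← hw1, hz1] at hrep
      exact rep_inj hrep hr
  simp only [hiff]

end

end Cfsg.Agent.H440.J4P.Cover
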