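import Cfsg.Agent.H440.J4P.Slots
import Cfsg.Agent.Lib.F2MatGroup

/-!
# Counting the pairs `(h, c)` with `z b_h = z`, `z = x₀ (b_h a_c) ^ 11`

`b_h` (`h < H`) and `a_c = g⁻¹ a'_c g` (`c < C`) are matrices over the field with two elements.
-/

set_option autoImplicit false

namespace Cfsg.Agent.H440.J4P.Engine

open Cfsg.Agent.Lib.F2Mat Cfsg.Agent.Lib.F2MatGroup Cfsg.Agent.H440.J4P.Slots

/-! ### Evaluation in continuation passing style -/

/-- apply `k` to the list of the values of `f` -/
def mapF (f : ℕ → ℕ) (L : List ℕ) (k : List ℕ → Bool) : Bool :=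
  List.rec (motive := fun _ => (List ℕ → Bool) → Bool) (fun k => k [])
    (fun A _ ih k => force (f A) fun v => ih fun M => k (v :: M)) L k

theorem mapF_eq (f : ℕ → ℕ) (L : List ℕ) (k : List ℕ → Bool) : mapF f L k = k (L.map f) := by
  induction L generalizing k with
  | nil => rfl
  | cons A L ih =>
    have e : mapF f (A :: L) k = force (f A) fun v => mapF f L fun M => k (v :: M) := rfl
    rw [e, force_eq, ih]
    rfl

/-- packed rows of a list of matrices -/
def packF (n ones st rep : ℕ) (As : List ℕ) (m : ℕ) (k : List (ℕ × ℕ) → Bool) : Bool :=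
  Nat.rec (motive := fun _ => (List (ℕ × ℕ) → Bool) → Bool) (fun k => k [])
    (fun m ih k => force (Nat.mul n m) fun nm => force (Nat.mul (pack ones st nm As) rep)
      fun v => ih fun M => k ((m, v) :: M)) m k

theorem packF_eq {n H : ℕ} (As : List ℕ) (m : ℕ) (k : List (ℕ × ℕ) → Bool) :
    packF n (2 ^ n - 1) (n * H) (blk n (fun _ => 1) H) As m k =
      k (rowsL n (fun s => As.getD (s / H) 0) (H * As.length) m) := by
  induction m generalizing k with
  | zero => rfl
  | succ m ih =>
    have e : packF n (2 ^ n - 1) (n * H) (blk n (fun _ => 1) H) As (m + 1) k =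
      force (Nat.mul n m) fun nm => force (Nat.mul (pack (2 ^ n - 1) (n * H) nm As)
        (blk n (fun _ => 1) H)) fun v => packF n (2 ^ n - 1) (n * H) (blk n (fun _ => 1) H) As m
          fun M => k ((m, v) :: M) := rfl
    rw [e, force_eq, force_eq, ih, rowsL]
    have e2 : Nat.mul (pack (2 ^ n - 1) (n * H) (Nat.mul n m) As) (blk n (fun _ => 1) H) =
        pack (2 ^ n - 1) (n * H) (n * m) As * blk n (fun _ => 1) H := rfl
    rw [e2, pack_eq, blk_mul_rep]

/-- multiply all the entries by `rep` -/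
def scaleF (rep : ℕ) (L : List (ℕ × ℕ)) (k : List (ℕ × ℕ) → Bool) : Bool :=
  List.rec (motive := fun _ => (List (ℕ × ℕ) → Bool) → Bool) (fun k => k [])
    (fun p _ ih k => force p.1 fun i => force (Nat.mul p.2 rep) fun v => ih fun M =>
      k ((i, v) :: M)) L k

theorem scaleF_eq {n H : ℕ} (C : ℕ) (q : ℕ → ℕ) (m : ℕ) (k : List (ℕ × ℕ) → Bool) :
    scaleF (blk (n * H) (fun _ => 1) C) (rowsL n q H m) k =
      k (rowsL n (fun s => q (s % H)) (H * C) m) := by
  induction m generalizing k with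
  | zero => rfl
  | succ m ih =>
    have e : scaleF (blk (n * H) (fun _ => 1) C) (rowsL n q H (m + 1)) k =
      force m fun i => force (Nat.mul (blk n (fun s => row n (q s) m) H)
        (blk (n * H) (fun _ => 1) C)) fun v => scaleF (blk (n * H) (fun _ => 1) C)
          (rowsL n q H m) fun M => k ((i, v) :: M) := rfl
    rw [e, force_eq, force_eq, ih, rowsL]
    have e2 : Nat.mul (blk n (fun s => row n (q s) m) H) (blk (n * H) (fun _ => 1) C) =
        blk n (fun s => row n (q s) m) H * blk (n * H) (fun _ => 1) C := rfl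
    rw [e2, blk_mul_rep']

/-- `j` steps -/
def steps (M ones : ℕ) (BP AP : List (ℕ × ℕ)) (j Y : ℕ) (k : ℕ → Bool) : Bool :=
  Nat.rec (motive := fun _ => ℕ → Bool) (fun Y => k Y)
    (fun _ ih Y => force (sgo M ones Y BP) fun Y1 => force (sgo M ones Y1 AP) fun Y2 => ih Y2) j Y

/-- `j` steps, one slot -/
def itr (n B A : ℕ) : ℕ → ℕ → ℕ
  | 0, v => v
  | j + 1, v => itr n B A j (vmul n (vmul n v B) A)

theorem itr_lt (n B A j : ℕ) {v : ℕ} (hv : v < 2 ^ n) : itr n B A j v < 2 ^ n := by
  induction j generalizing v with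
  | zero => exact hv
  | succ j ih => exact ih (vmul_lt _ _)

theorem steps_eq {n K : ℕ} (hn : 0 < n) (B A : ℕ → ℕ) (j : ℕ) {y : ℕ → ℕ}
    (hy : ∀ s < K, y s < 2 ^ n) (k : ℕ → Bool) :
    steps (blk n (fun _ => 1) K) (2 ^ n - 1) (rowsL n B K n) (rowsL n A K n) j (blk n y K) k =
      k (blk n (fun s => itr n (B s) (A s) j (y s)) K) := by
  induction j generalizing y with
  | zero => rfl
  | succ j ih =>
    have e : steps (blk n (fun _ => 1) K) (2 ^ n - 1) (rowsL n B K n) (rowsL n A K n) (j + 1)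
        (blk n y K) k =
      force (sgo (blk n (fun _ => 1) K) (2 ^ n - 1) (blk n y K) (rowsL n B K n)) fun Y1 =>
        force (sgo (blk n (fun _ => 1) K) (2 ^ n - 1) Y1 (rowsL n A K n)) fun Y2 =>
          steps (blk n (fun _ => 1) K) (2 ^ n - 1) (rowsL n B K n) (rowsL n A K n) j Y2 k := rfl
    rw [e, force_eq, force_eq, sgo_eq hn hy, sgo_eq hn fun s _ => vmul_lt _ _,
      ih fun s _ => vmul_lt _ _]
    rfl

/-- `1 + 2 ^ n + 2 ^ (2 n) + …`, `K` terms -/
def geo (n K : ℕ) : ℕ :=
  Nat.div (Nat.sub (Nat.pow 2 (Nat.mul n K)) 1) (Nat.sub (Nat.pow 2 n) 1)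

theorem geo_eq {n : ℕ} (hn : 0 < n) (K : ℕ) : geo n K = blk n (fun _ => 1) K := by
  have h2 : 2 ≤ 2 ^ n := by
    calc 2 = 2 ^ 1 := (pow_one 2).symm
      _ ≤ 2 ^ n := Nat.pow_le_pow_right (by norm_num) hn
  rw [blk_one, Nat.geomSum_eq h2, ← pow_mul]
  rfl

/-- The test: `e` of the `H * C` slots satisfy the equation. -/
def test (n H C e x0 : ℕ) (BQ : List (ℕ × ℕ)) (As : List ℕ) : Bool :=
  force (Nat.sub (Nat.pow 2 n) 1) fun ones =>
    force (Nat.mul n H) fun st =>
      force (Nat.mul H C) fun K =>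
        force (geo n K) fun M =>
          force (geo n H) fun RH =>
            force (geo st C) fun SC =>
              packF n ones st RH As n fun AP =>
                scaleF SC BQ fun BP =>
                  force (Nat.mul x0 M) fun Y =>
                    steps M ones BP AP 11 Y fun Y =>
                      force (Nat.xor (sgo M ones Y BP) Y) fun D =>
                        Nat.beq (Nat.add (Nat.mod (nzAux M D n) ones) e) K

theorem test_sound {n H C e x0 : ℕ} (hn : 0 < n) (hH : 0 < H) (Bs As : List ℕ)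
    (hC : As.length = C) (hK : H * C < 2 ^ n - 1) (hx : x0 < 2 ^ n)
    (h : test n H C e x0 (rowsL n (fun s => Bs.getD s 0) H n) As = true) :
    ((Finset.range (H * C)).filter fun s =>
      vmul n (itr n (Bs.getD (s % H) 0) (As.getD (s / H) 0) 11 x0) (Bs.getD (s % H) 0) =
        itr n (Bs.getD (s % H) 0) (As.getD (s / H) 0) 11 x0).card = e := by
  subst hC
  have e1 : Nat.sub (Nat.pow 2 n) 1 = 2 ^ n - 1 := rfl
  have e2 : Nat.mul n H = n * H := rfl
  have e3 : Nat.mul H As.length = H * As.length := rfl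
  unfold test at h
  rw [force_eq, force_eq, force_eq, force_eq, force_eq, force_eq, e1, e2, e3,
    geo_eq hn, geo_eq hn, geo_eq (Nat.mul_pos hn hH), packF_eq, scaleF_eq, force_eq] at h
  have e4 : Nat.mul x0 (blk n (fun _ => 1) (H * As.length)) =
      blk n (fun _ => x0) (H * As.length) := by
    have : Nat.mul x0 (blk n (fun _ => 1) (H * As.length)) =
      blk n (fun _ => 1) (H * As.length) * x0 := Nat.mul_comm _ _
    rw [this, blk_mul]
    exact blk_congr _ fun s _ => one_mul _
  rw [e4, steps_eq hn _ _ _ (fun s _ => hx), force_eq, Nat.beq_eq] at h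
  set z : ℕ → ℕ := fun s => itr n (Bs.getD (s % H) 0) (As.getD (s / H) 0) 11 x0 with hz
  have hzl : ∀ s < H * As.length, z s < 2 ^ n := fun s _ => itr_lt _ _ _ _ hx
  have e5 : Nat.xor (sgo (blk n (fun _ => 1) (H * As.length)) (2 ^ n - 1)
      (blk n z (H * As.length)) (rowsL n (fun s => Bs.getD (s % H) 0) (H * As.length) n))
      (blk n z (H * As.length)) = blk n (fun s => vmul n (z s) (Bs.getD (s % H) 0) ^^^ z s)
        (H * As.length) := by
    rw [sgo_eq hn hzl]
    exact blk_xor hn _ (fun s _ => vmul_lt _ _) hzl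
  rw [e5, nzAux_eq hn fun s hs => Nat.xor_lt_two_pow (vmul_lt _ _) (hzl s hs)] at h
  have h6 := count_eq (n := n) (d := fun s => vmul n (z s) (Bs.getD (s % H) 0) ^^^ z s) hK
  have h7 : Nat.add (Nat.mod (blk n (fun s => if vmul n (z s) (Bs.getD (s % H) 0) ^^^ z s = 0
      then 0 else 1) (H * As.length)) (2 ^ n - 1)) e = blk n (fun s =>
      if vmul n (z s) (Bs.getD (s % H) 0) ^^^ z s = 0 then 0 else 1) (H * As.length) % (2 ^ n - 1)
      + e := rfl
  rw [h7] at h
  have h8 : ((Finset.range (H * As.length)).filter fun s =>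
      vmul n (z s) (Bs.getD (s % H) 0) ^^^ z s = 0).card = e := by omega
  rw [← h8]
  congr 1
  refine Finset.filter_congr fun s _ => ?_
  rw [Nat.xor_eq_zero_iff]

/-- conjugate all the matrices of the list, then test -/
def testC (n H C e x0 : ℕ) (BQ : List (ℕ × ℕ)) (G GI : ℕ) (base : List ℕ) : Bool :=
  force G fun G => force GI fun GI => mapF (fun A => mul n (mul n GI A) G) base fun As =>
    test n H C e x0 BQ As

theorem testC_eq (n H C e x0 : ℕ) (BQ : List (ℕ × ℕ)) (G GI : ℕ) (base : List ℕ) :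
    testC n H C e x0 BQ G GI base =
      test n H C e x0 BQ (base.map fun A => mul n (mul n GI A) G) := by
  unfold testC
  rw [force_eq, force_eq, mapF_eq]

/-! ### Groups -/

/-- row vector times matrix -/
def act {n : ℕ} (v : Fin n → ZMod 2) (g : GL (Fin n) (ZMod 2)) : Fin n → ZMod 2 :=
  Matrix.vecMul v (g : Matrix (Fin n) (Fin n) (ZMod 2))

theorem act_one {n : ℕ} (v : Fin n → ZMod 2) : act v 1 = v := by
  unfold act
  rw [Units.val_one, Matrix.vecMul_one]

theorem act_mul {n : ℕ} (v : Fin n → ZMod 2) (g h : GL (Fin n) (ZMod 2)) :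
    act v (g * h) = act (act v g) h := by
  unfold act
  rw [Matrix.vecMul_vecMul, Units.val_mul]

theorem act_inv_of_fix {n : ℕ} {v : Fin n → ZMod 2} {g : GL (Fin n) (ZMod 2)}
    (h : act v g = v) : act v g⁻¹ = v := by
  conv_lhs => rw [← h]
  rw [← act_mul, mul_inv_cancel, act_one]

theorem act_injective {n : ℕ} (g : GL (Fin n) (ZMod 2)) :
    Function.Injective fun v : Fin n → ZMod 2 => act v g := by
  intro v w h
  have h1 := congrArg (fun u => act u g⁻¹) h
  simpa only [← act_mul, mul_inv_cancel, act_one] using h1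

theorem toVec_vmul_act {n : ℕ} {g : GL (Fin n) (ZMod 2)} {A : ℕ} (h : Codes n g A) (v : ℕ) :
    toVec n (vmul n v A) = act (toVec n v) g := by
  rw [toVec_vmul]
  unfold act
  rw [← show (g : Matrix (Fin n) (Fin n) (ZMod 2)) = toMat n A from h]

theorem toVec_itr {n : ℕ} {b a : GL (Fin n) (ZMod 2)} {B A : ℕ} (hb : Codes n b B)
    (ha : Codes n a A) (j v : ℕ) : toVec n (itr n B A j v) = act (toVec n v) ((b * a) ^ j) := by
  induction j generalizing v with
  | zero => rw [pow_zero, act_one]; rfl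
  | succ j ih =>
    rw [itr, ih, toVec_vmul_act ha, toVec_vmul_act hb, pow_succ', act_mul, act_mul]

/-- the equation in one slot -/
theorem slot_iff {n : ℕ} {b a : GL (Fin n) (ZMod 2)} {B A : ℕ} (hb : Codes n b B)
    (ha : Codes n a A) (j : ℕ) {v : ℕ} (hv : v < 2 ^ n) :
    vmul n (itr n B A j v) B = itr n B A j v ↔
      act (act (toVec n v) ((b * a) ^ j)) b = act (toVec n v) ((b * a) ^ j) := by
  rw [← toVec_itr hb ha, ← toVec_vmul_act hb]
  constructor
  · intro h; rw [h]
  · intro h; exact toVec_inj (vmul_lt _ _) (itr_lt _ _ _ _ hv) h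

end Cfsg.Agent.H440.J4P.Engine
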