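import Cfsg.Agent.H440.J4P.Engine
import Cfsg.Agent.H440.J4P.Data
import Cfsg.Agent.H440.J4P.DataB
import Cfsg.Agent.H440.J4P.Words
import Cfsg.Agent.H858.VK

/-!
# The matrices of the parity count for J4
-/

set_option autoImplicit false

open Cfsg

namespace Cfsg.Agent.H440.J4P.Mats

open Cfsg.Agent.Lib Cfsg.Agent.Lib.F2Mat Cfsg.Agent.Lib.F2MatGroup
open Cfsg.Agent.J4.Rep112 Cfsg.Agent.J4.Pres Cfsg.Agent.J4.M24Hom Cfsg.Agent.J4.Nodes
open Cfsg.Agent.J4.Beta Cfsg.Agent.J4.Classes Cfsg.Agent.J4.ClassesData Cfsg.Agent.J4.Invol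
open Cfsg.Agent.J4.Lower Cfsg.Agent.J4.ClassesAbs Cfsg.Agent.J4.LowerData Cfsg.Agent.H858.VK
open Cfsg.Agent.H440.J4P.Data Cfsg.Agent.H440.J4P.DataB Cfsg.Agent.H440.J4P.Words
open Cfsg.Agent.H440.J4P.Slots Cfsg.Agent.H440.J4P.Engine

theorem codes_of_beq {n : ℕ} {g : GL (Fin n) (ZMod 2)} {A B : ℕ} (h : Codes n g A)
    (e : Nat.beq A B = true) : Codes n g B := by
  rw [← Nat.eq_of_beq_eq_true e]; exact h

/-! ### Elements of `M24` -/

/-- the element `p` -/
def pM : M24 := wordG wp

/-- the involution `h` -/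
def hM : M24 := wordG wh

/-- the letters of the other words -/
def LD : List M24 := [pM, pM⁻¹, hM]

/-- the element `q` -/
def qM : M24 := evG LD wq

/-- the three involutions and `1` -/
def mX (k : ℕ) : M24 := if k < 3 then evG LD (wX.getD k []) else 1

/-- 55 elements of `⟨p, q⟩` -/
def tau (h : ℕ) : M24 := qM ^ (h / 11) * pM ^ (h % 11)

theorem getG_mgens (i : ℕ) (hi : i < 3) : getG mgens i = psi (letG i) := by
  match i with
  | 0 => exact psi_X.symm
  | 1 => exact psi_Y.symm
  | 2 =>
    have h : psi (letG 2) = (psi YM)⁻¹ := map_inv psi YM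
    rw [h, psi_Y, ← map_inv]
    rfl

theorem evG_word (w : List ℕ) (hw : ∀ i ∈ w, i < 3) : evG mgens w = psi (wordG w) := by
  induction w with
  | nil => exact (map_one psi).symm
  | cons i w ih =>
    rw [evG_cons, ih fun j hj => hw j (List.mem_cons_of_mem _ hj),
      getG_mgens i (hw i (List.mem_cons_self ..)), wordG, map_mul]

theorem codes_word (w : List ℕ) (hw : ∀ i ∈ w, i < 3) {A : ℕ}
    (h : Nat.beq (evW 112 codes w) A = true) : Codes 112 (psi (wordG w)) A := by
  have h1 := codes_evW codes_gens w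
  rw [Nat.eq_of_beq_eq_true h] at h1
  rw [← evG_word w hw]
  exact h1

theorem codes_p : Codes 112 (psi pM) PC := codes_word wp (by decide) (by decide +kernel)

theorem codes_h : Codes 112 (psi hM) HC := codes_word wh (by decide) (by decide +kernel)

theorem codes_pi : Codes 112 (psi pM⁻¹) PIC := by
  rw [map_inv]
  exact codes_p.inv (by decide +kernel)

theorem hM_sq : hM * hM = 1 := by
  apply psi_injective
  rw [map_mul, map_one]
  exact (codes_h.mul codes_h).eq_one (by decide +kernel)

/-- packed letters -/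
def LC' : List ℕ := [PC, PIC, HC]

theorem codes_LD : List.Forall₂ (Codes 112) (LD.map psi) LC' :=
  List.Forall₂.cons codes_p (List.Forall₂.cons codes_pi (List.Forall₂.cons codes_h
    List.Forall₂.nil))

theorem codes_ev (w : List ℕ) : Codes 112 (psi (evG LD w)) (evW 112 LC' w) := by
  rw [← evG_map]
  exact codes_evW codes_LD w

theorem codes_q : Codes 112 (psi qM) QC := codes_of_beq (codes_ev wq) (by decide +kernel)

theorem codes_qi : Codes 112 (psi qM⁻¹) QIC := by
  rw [map_inv]
  exact codes_q.inv (by decide +kernel)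

theorem codes_m0 : Codes 112 (psi (mX 0)) M0C :=
  codes_of_beq (codes_ev (wX.getD 0 [])) (by decide +kernel)

theorem codes_m1 : Codes 112 (psi (mX 1)) M1C :=
  codes_of_beq (codes_ev (wX.getD 1 [])) (by decide +kernel)

theorem codes_m2 : Codes 112 (psi (mX 2)) M2C :=
  codes_of_beq (codes_ev (wX.getD 2 [])) (by decide +kernel)

/-- inverse of a word in `p, p⁻¹, h` -/
def winv (w : List ℕ) : List ℕ :=
  (w.map fun i => cond (Nat.beq i 0) 1 (cond (Nat.beq i 1) 0 i)).reverse

theorem evG_winv (w : List ℕ) (hw : ∀ i ∈ w, i < 3) : evG LD (winv w) = (evG LD w)⁻¹ := by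
  induction w with
  | nil => exact inv_one.symm
  | cons i w ih =>
    have e : winv (i :: w) = winv w ++ [cond (Nat.beq i 0) 1 (cond (Nat.beq i 1) 0 i)] := by
      unfold winv
      rw [List.map_cons, List.reverse_cons]
    rw [e, evG_append, ih fun j hj => hw j (List.mem_cons_of_mem _ hj), evG_cons LD i w,
      mul_inv_rev, evG_single]
    congr 1
    match i, hw i (List.mem_cons_self ..) with
    | 0, _ => rfl
    | 1, _ =>
      show pM = (pM⁻¹)⁻¹
      rw [inv_inv]
    | 2, _ =>
      show hM = hM⁻¹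
      exact eq_inv_of_mul_eq_one_left hM_sq

/-! ### The elementary abelian group -/

/-- the second list begins with the first -/
def pre : List ℕ → List ℕ → Bool
  | [], _ => true
  | _ :: _, [] => false
  | a :: as, b :: bs => cond (Nat.beq a b) (pre as bs) false

theorem pre_eq : ∀ {a b : List ℕ}, pre a b = true → b.take a.length = a
  | [], _, _ => rfl
  | _ :: _, [], h => absurd h (by simp [pre])
  | a :: as, b :: bs, h => by
    have h' : cond (Nat.beq a b) (pre as bs) false = true := h
    rcases hb : Nat.beq a b with _ | _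
    · rw [hb] at h'; exact absurd h' Bool.false_ne_true
    · rw [hb] at h'
      rw [List.length_cons, List.take_succ_cons, pre_eq h', Nat.eq_of_beq_eq_true hb]

theorem forall₂_take {α β : Type*} {R : α → β → Prop} {l : List α} {m : List β}
    (h : List.Forall₂ R l m) (n : ℕ) : List.Forall₂ R (l.take n) (m.take n) := by
  induction h generalizing n with
  | nil => simp
  | cons h1 _ ih =>
    rcases n with _ | n
    · simp
    · exact List.Forall₂.cons h1 (ih n)

theorem codes_qs : List.Forall₂ (Codes 112) qs qsC := by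
  have h : run 112 slpQ codes (pre qsC) = true := by decide +kernel
  obtain ⟨L', h1, h2⟩ := run_sound codes_gens h
  have h3 := pre_eq h2
  have h4 := forall₂_take h1 qsC.length
  rw [h3] at h4
  exact h4

theorem exists_EJ (v : ℕ) : ∃ e ∈ EJ, rho e = beta qs v := by
  have h : beta qs v ∈ Q := beta_mem Q qs (fun a ha => Subgroup.subset_closure ha) _
  rw [← map_EJ] at h
  exact h

/-- the element of the elementary abelian group with a given vector -/
noncomputable def eJ (v : ℕ) : Cfsg.Spor.J4 := (exists_EJ v).choose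

theorem eJ_mem (v : ℕ) : eJ v ∈ EJ := (exists_EJ v).choose_spec.1

theorem rho_eJ (v : ℕ) : rho (eJ v) = beta qs v := (exists_EJ v).choose_spec.2

theorem codes_beta (m : GL (Fin 112) (ZMod 2)) {M : ℕ} (hm : Codes 112 m M) (v : ℕ) :
    Codes 112 (beta qs v * m) (evW 112 (qsC ++ [M]) (bw 11 0 v ++ [11])) := by
  have h1 : List.Forall₂ (Codes 112) (qs ++ [m]) (qsC ++ [M]) :=
    List.rel_append codes_qs (List.Forall₂.cons hm List.Forall₂.nil)
  have h2 := codes_evW h1 (bw 11 0 v ++ [11])
  have e1 : evG (qs ++ [m]) (bw 11 0 v) = beta qs v := by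
    have h4 := evG_bw (qs ++ [m]) qs 0 v (by
      intro i hi
      rw [Nat.zero_add]
      unfold getG
      rw [List.getD_append _ _ _ _ hi])
    rw [qs_length] at h4
    exact h4
  have e2 : getG (qs ++ [m]) 11 = m := by
    unfold getG
    rw [List.getD_append_right _ _ _ _ (by rw [qs_length])]
    rw [qs_length]
    rfl
  rw [evG_append, evG_single, e1, e2] at h2
  exact h2

/-- check of a list of matrices -/
def chkB (E : List ℕ) : List ℕ → List ℕ → Bool
  | [], [] => true
  | v :: vs, A :: As => cond (Nat.beq (evW 112 E (bw 11 0 v ++ [11])) A) (chkB E vs As) false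
  | _, _ => false

theorem chkB_sound {m : GL (Fin 112) (ZMod 2)} {M : ℕ} (hm : Codes 112 m M) :
    ∀ {vs As : List ℕ}, chkB (qsC ++ [M]) vs As = true →
      List.Forall₂ (fun v A => Codes 112 (beta qs v * m) A) vs As
  | [], [], _ => List.Forall₂.nil
  | [], _ :: _, h => absurd h (by simp [chkB])
  | _ :: _, [], h => absurd h (by simp [chkB])
  | v :: vs, A :: As, h => by
    have h' : cond (Nat.beq (evW 112 (qsC ++ [M]) (bw 11 0 v ++ [11])) A)
      (chkB (qsC ++ [M]) vs As) false = true := h
    rcases hb : Nat.beq (evW 112 (qsC ++ [M]) (bw 11 0 v ++ [11])) A with _ | _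
    · rw [hb] at h'; exact absurd h' Bool.false_ne_true
    · rw [hb] at h'
      exact List.Forall₂.cons (codes_of_beq (codes_beta m hm v) hb) (chkB_sound hm h')

/-- the lists of matrices -/
def base (k : ℕ) : List ℕ :=
  match k with
  | 0 => base0
  | 1 => base1
  | 2 => base2
  | _ => base3

/-- the lists of vectors -/
def vl (k : ℕ) : List ℕ := Lv.getD k []

theorem base0_ok : chkB (qsC ++ [M0C]) (vl 0) base0 = true := by decide +kernel
theorem base1_ok : chkB (qsC ++ [M1C]) (vl 1) base1 = true := by decide +kernel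
theorem base2_ok : chkB (qsC ++ [M2C]) (vl 2) base2 = true := by decide +kernel
theorem base3_ok : chkB (qsC ++ [one 112]) (vl 3) base3 = true := by decide +kernel

/-- The elements of the lists. -/
theorem codes_base (k : ℕ) (hk : k < 4) :
    List.Forall₂ (fun v A => Codes 112 (rho (eJ v * phi (mX k))) A) (vl k) (base k) := by
  have key : ∀ {m : M24} {vs As : List ℕ},
      List.Forall₂ (fun v A => Codes 112 (beta qs v * psi m) A) vs As →
      List.Forall₂ (fun v A => Codes 112 (rho (eJ v * phi m)) A) vs As := by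
    intro m vs As h
    refine h.imp ?_
    intro v A h1
    rw [map_mul, rho_eJ]
    exact h1
  match k, hk with
  | 0, _ => exact key (chkB_sound codes_m0 base0_ok)
  | 1, _ => exact key (chkB_sound codes_m1 base1_ok)
  | 2, _ => exact key (chkB_sound codes_m2 base2_ok)
  | 3, _ =>
    refine key (chkB_sound ?_ base3_ok)
    have h : psi (mX 3) = 1 := map_one psi
    rw [h]
    exact Codes.one 112

/-! ### The conjugates of `b` -/

/-- the involution `t` -/
noncomputable def tJ : Cfsg.Spor.J4 := eJ 1010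

/-- a conjugating element -/
def cJ : Cfsg.Spor.J4 := t * y * x * t * y * t

/-- the involution `b` -/
noncomputable def bJ : Cfsg.Spor.J4 := cJ⁻¹ * tJ * cJ

theorem codes_t : Codes 112 (rho tJ) TZC := by
  have h1 : Nat.beq (evW 112 (qsC ++ [one 112]) (bw 11 0 1010 ++ [11])) TZC = true := by
    decide +kernel
  have h := codes_of_beq (codes_beta 1 (Codes.one 112) 1010) h1
  rw [mul_one] at h
  unfold tJ
  rw [rho_eJ]
  exact h

theorem codes_b0 : Codes 112 (rho bJ) (Bs.getD 0 0) := by
  have h1 : List.Forall₂ (Codes 112) (gens.map rho ++ [rho tJ]) (codes ++ [TZC]) :=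
    List.rel_append codes_gens (List.Forall₂.cons codes_t List.Forall₂.nil)
  have h3 : Nat.beq (evW 112 (codes ++ [TZC]) [3, 2, 3, 0, 2, 3, 4, 3, 1, 0, 3, 1, 3])
      (Bs.getD 0 0) = true := by decide +kernel
  have h2 := codes_of_beq (codes_evW h1 [3, 2, 3, 0, 2, 3, 4, 3, 1, 0, 3, 1, 3]) h3
  have hx : rho x * rho x = 1 := by
    rw [rho_x, ← pow_two]; exact rel1
  have ht : rho t * rho t = 1 := by
    rw [rho_t, ← pow_two]; exact rel8
  have hx' : (rho x)⁻¹ = rho x := inv_eq_of_mul_eq_one_left hx
  have ht' : (rho t)⁻¹ = rho t := inv_eq_of_mul_eq_one_left ht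
  have h4 : rho bJ = evG (gens.map rho ++ [rho tJ]) [3, 2, 3, 0, 2, 3, 4, 3, 1, 0, 3, 1, 3] := by
    have e0 : getG (gens.map rho ++ [rho tJ]) 0 = rho x := rfl
    have e1 : getG (gens.map rho ++ [rho tJ]) 1 = rho y := rfl
    have e2 : getG (gens.map rho ++ [rho tJ]) 2 = rho y⁻¹ := rfl
    have e3 : getG (gens.map rho ++ [rho tJ]) 3 = rho t := rfl
    have e4 : getG (gens.map rho ++ [rho tJ]) 4 = rho tJ := rfl
    simp only [evG_cons, evG_nil, e0, e1, e2, e3, e4, mul_one]
    unfold bJ cJ
    simp only [map_mul, map_inv, mul_inv_rev, hx', ht', mul_assoc]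
  rw [h4]
  exact h2

/-- conjugation by the same element at distance `d` -/
def chkS (A AI : ℕ) (d m : ℕ) : Bool :=
  (List.range m).all fun i => Nat.beq (mul 112 (mul 112 A (Bs.getD i 0)) AI) (Bs.getD (i + d) 0)

theorem bs_p : chkS PC PIC 1 10 = true := by decide +kernel
theorem bs_q : chkS QC QIC 11 44 = true := by decide +kernel

theorem chkS_sound {A AI d m : ℕ} (h : chkS A AI d m = true) {g : M24}
    (hg : Codes 112 (psi g) A) (hg' : Codes 112 (psi g⁻¹) AI) (i : ℕ) (hi : i < m)
    {z : Cfsg.Spor.J4} (hz : Codes 112 (rho z) (Bs.getD i 0)) :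
    Codes 112 (rho (phi g * z * (phi g)⁻¹)) (Bs.getD (i + d) 0) := by
  unfold chkS at h
  rw [List.all_eq_true] at h
  have h1 := codes_of_beq ((hg.mul hz).mul hg') (h i (List.mem_range.2 hi))
  have e : rho (phi g * z * (phi g)⁻¹) = psi g * rho z * psi g⁻¹ := by
    rw [map_mul, map_mul, ← map_inv]
    rfl
  rw [e]
  exact h1

/-- The 55 conjugates of `b`. -/
theorem codes_b (h : ℕ) (hh : h < 55) :
    Codes 112 (rho (phi (tau h) * bJ * (phi (tau h))⁻¹)) (Bs.getD h 0) := by
  induction h using Nat.strong_induction_on with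
  | _ h ih =>
    rcases Nat.lt_or_ge h 11 with h11 | h11
    · rcases Nat.eq_zero_or_pos h with rfl | hpos
      · have e : tau 0 = 1 := by
          unfold tau; simp
        rw [e, map_one, one_mul, inv_one, mul_one]
        exact codes_b0
      · obtain ⟨j, rfl⟩ : ∃ j, h = j + 1 := ⟨h - 1, by omega⟩
        have h1 := chkS_sound bs_p codes_p codes_pi j (by omega) (ih j (by omega) (by omega))
        have e : tau (j + 1) = pM * tau j := by
          unfold tau
          rw [Nat.div_eq_of_lt h11, Nat.div_eq_of_lt (by omega), Nat.mod_eq_of_lt h11,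
            Nat.mod_eq_of_lt (by omega), pow_zero, one_mul, one_mul, pow_succ']
        have e2 : phi (pM * tau j) * bJ * (phi (pM * tau j))⁻¹ =
            phi pM * (phi (tau j) * bJ * (phi (tau j))⁻¹) * (phi pM)⁻¹ := by
          rw [map_mul phi pM (tau j)]; group
        rw [e, e2]
        exact h1
    · obtain ⟨j, rfl⟩ : ∃ j, h = j + 11 := ⟨h - 11, by omega⟩
      have h1 := chkS_sound bs_q codes_q codes_qi j (by omega) (ih j (by omega) (by omega))
      have e : tau (j + 11) = qM * tau j := by
        unfold tau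
        rw [Nat.add_div_right _ (by norm_num), Nat.add_mod_right, pow_succ', mul_assoc]
      have e2 : phi (qM * tau j) * bJ * (phi (qM * tau j))⁻¹ =
          phi qM * (phi (tau j) * bJ * (phi (tau j))⁻¹) * (phi qM)⁻¹ := by
        rw [map_mul phi qM (tau j)]; group
      rw [e, e2]
      exact h1

/-- check of the packed rows -/
def chkR (ones : ℕ) : List (ℕ × ℕ) → ℕ → Bool
  | [], 0 => true
  | p :: L, m + 1 => cond (Nat.beq p.1 m)
      (cond (Nat.beq p.2 (pack ones 112 (Nat.mul 112 m) Bs)) (chkR ones L m) false) false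
  | _, _ => false

theorem chkR_sound : ∀ {L : List (ℕ × ℕ)} {m : ℕ}, chkR (2 ^ 112 - 1) L m = true →
    L = rowsL 112 (fun s => Bs.getD s 0) 55 m
  | [], 0, _ => rfl
  | [], m + 1, h => absurd h (by simp [chkR])
  | _ :: _, 0, h => absurd h (by simp [chkR])
  | p :: L, m + 1, h => by
    have h' : cond (Nat.beq p.1 m) (cond (Nat.beq p.2 (pack (2 ^ 112 - 1) 112 (Nat.mul 112 m) Bs))
      (chkR (2 ^ 112 - 1) L m) false) false = true := h
    rcases hb : Nat.beq p.1 m with _ | _
    · rw [hb] at h'; exact absurd h' Bool.false_ne_true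
    · rw [hb] at h'
      rcases hc : Nat.beq p.2 (pack (2 ^ 112 - 1) 112 (Nat.mul 112 m) Bs) with _ | _
      · rw [hc] at h'; exact absurd h' Bool.false_ne_true
      · rw [hc] at h'
        rw [rowsL, ← chkR_sound h']
        have h1 : Nat.mul 112 m = 112 * m := rfl
        have h2 := pack_eq 112 112 m Bs
        have h3 : Bs.length = 55 := rfl
        rw [h3] at h2
        have h4 := Nat.eq_of_beq_eq_true hc
        rw [h1, h2] at h4
        rw [← h4, ← Nat.eq_of_beq_eq_true hb]

theorem bq_ok : chkR 5192296858534827628530496329220095 BQ 112 = true := by decide +kernel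

theorem BQ_eq : BQ = rowsL 112 (fun s => Bs.getD s 0) 55 112 := by
  apply chkR_sound
  have h : (2 : ℕ) ^ 112 - 1 = 5192296858534827628530496329220095 := by norm_num
  rw [h]
  exact bq_ok

end Cfsg.Agent.H440.J4P.Mats
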