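import Cfsg.Agent.Lib.F2Mat

/-!
# Many vectors times many matrices over the field with two elements

A natural number `blk n y K` contains `K` vectors `y 0, …, y (K - 1)` of length `n` ("slots").  The
functions of this file multiply the vector in every slot by its own matrix; the `k`-th rows of all
the matrices are again packed in one number.
-/

set_option autoImplicit false

namespace Cfsg.Agent.H440.J4P.Slots

open Cfsg.Agent.Lib.F2Mat

/-! ### Blocks -/

theorem blk_congr {n : ℕ} {a b : ℕ → ℕ} (K : ℕ) (h : ∀ i < K, a i = b i) :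
    blk n a K = blk n b K := by
  induction K with
  | zero => rfl
  | succ K ih => rw [blk, blk, ih fun i hi => h i (by omega), h K (by omega)]

theorem blk_add (n : ℕ) (a : ℕ → ℕ) (K L : ℕ) :
    blk n a (K + L) = blk n a K + blk n (fun i => a (K + i)) L * 2 ^ (n * K) := by
  induction L with
  | zero => simp [blk]
  | succ L ih =>
    rw [← Nat.add_assoc, blk, ih, blk, Nat.mul_add, pow_add]
    ring

theorem blk_head (n : ℕ) (a : ℕ → ℕ) (K : ℕ) :
    blk n a (K + 1) = a 0 + blk n (fun i => a (i + 1)) K * 2 ^ n := by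
  rw [Nat.add_comm K 1, blk_add, blk, blk, Nat.mul_zero, pow_zero, mul_one, Nat.zero_add, mul_one]
  congr 2
  exact blk_congr _ fun i _ => by rw [Nat.add_comm]

theorem testBit_blk' {n : ℕ} (hn : 0 < n) {a : ℕ → ℕ} (K : ℕ) (ha : ∀ i < K, a i < 2 ^ n) (p : ℕ) :
    (blk n a K).testBit p = (decide (p / n < K) && (a (p / n)).testBit (p % n)) := by
  by_cases h : p / n < K
  · rw [decide_eq_true h, Bool.true_and, ← testBit_blk K ha h (Nat.mod_lt p hn), Nat.div_add_mod]
  · rw [decide_eq_false h, Bool.false_and]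
    refine testBit_blk_ge K ha ?_
    have h1 : K ≤ p / n := not_lt.1 h
    calc n * K ≤ n * (p / n) := Nat.mul_le_mul_left _ h1
      _ ≤ p := Nat.mul_div_le p n

theorem blk_xor {n : ℕ} (hn : 0 < n) {a b : ℕ → ℕ} (K : ℕ) (ha : ∀ i < K, a i < 2 ^ n)
    (hb : ∀ i < K, b i < 2 ^ n) : blk n a K ^^^ blk n b K = blk n (fun i => a i ^^^ b i) K := by
  apply Nat.eq_of_testBit_eq
  intro p
  rw [Nat.testBit_xor, testBit_blk' hn K ha, testBit_blk' hn K hb,
    testBit_blk' hn K fun i hi => Nat.xor_lt_two_pow (ha i hi) (hb i hi), Nat.testBit_xor]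
  cases decide (p / n < K) <;> simp

theorem blk_and {n : ℕ} (hn : 0 < n) {a b : ℕ → ℕ} (K : ℕ) (ha : ∀ i < K, a i < 2 ^ n)
    (hb : ∀ i < K, b i < 2 ^ n) : blk n a K &&& blk n b K = blk n (fun i => a i &&& b i) K := by
  apply Nat.eq_of_testBit_eq
  intro p
  rw [Nat.testBit_and, testBit_blk' hn K ha, testBit_blk' hn K hb,
    testBit_blk' hn K fun i hi => lt_of_le_of_lt Nat.and_le_left (ha i hi), Nat.testBit_and]
  cases decide (p / n < K) <;> simp

theorem blk_or {n : ℕ} (hn : 0 < n) {a b : ℕ → ℕ} (K : ℕ) (ha : ∀ i < K, a i < 2 ^ n)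
    (hb : ∀ i < K, b i < 2 ^ n) : blk n a K ||| blk n b K = blk n (fun i => a i ||| b i) K := by
  apply Nat.eq_of_testBit_eq
  intro p
  rw [Nat.testBit_or, testBit_blk' hn K ha, testBit_blk' hn K hb,
    testBit_blk' hn K fun i hi => Nat.or_lt_two_pow (ha i hi) (hb i hi), Nat.testBit_or]
  cases decide (p / n < K) <;> simp

/-- selecting bit `m` of every slot -/
theorem blk_bit {n : ℕ} (hn : 0 < n) {y : ℕ → ℕ} (K : ℕ) (hy : ∀ i < K, y i < 2 ^ n) {m : ℕ}
    (hm : m < n) : (blk n y K >>> m) &&& blk n (fun _ => 1) K =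
      blk n (fun i => ((y i).testBit m).toNat) K := by
  have h1 : ∀ i < K, (fun _ : ℕ => 1) i < 2 ^ n := fun _ _ => Nat.one_lt_two_pow (by omega)
  have h2 : ∀ i < K, (fun i => ((y i).testBit m).toNat) i < 2 ^ n := fun i _ =>
    lt_of_le_of_lt (Bool.toNat_le _) (Nat.one_lt_two_pow (by omega))
  apply Nat.eq_of_testBit_eq
  intro p
  rw [Nat.testBit_and, Nat.testBit_shiftRight, testBit_blk' hn K h1, testBit_blk' hn K h2,
    testBit_lit_one]
  by_cases h : p % n = 0
  · have e1 : (m + p) / n = p / n := by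
      obtain ⟨q, hq⟩ := Nat.dvd_of_mod_eq_zero h
      rw [hq, Nat.add_mul_div_left _ _ hn, Nat.div_eq_of_lt hm, Nat.zero_add,
        Nat.mul_div_cancel_left _ hn]
    have e2 : (m + p) % n = m := by
      obtain ⟨q, hq⟩ := Nat.dvd_of_mod_eq_zero h
      rw [hq, Nat.add_mul_mod_self_left, Nat.mod_eq_of_lt hm]
    rw [testBit_blk' hn K hy, e1, e2, h]
    cases (y (p / n)).testBit m <;> simp
  · have e3 : ((y (p / n)).testBit m).toNat.testBit (p % n) = false := by
      have h4 : (1 : ℕ).testBit (p % n) = false := by rw [testBit_lit_one]; simp [h]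
      cases (y (p / n)).testBit m
      · simp
      · exact h4
    rw [e3]
    simp [h]

theorem toNat_mul_ones_and {n : ℕ} (c : Bool) {r : ℕ} (hr : r < 2 ^ n) :
    (c.toNat * (2 ^ n - 1)) &&& r = c.toNat * r := by
  cases c
  · simp
  · rw [Bool.toNat_true, one_mul, one_mul, Nat.and_comm, Nat.and_two_pow_sub_one_eq_mod,
      Nat.mod_eq_of_lt hr]

/-! ### Vectors times matrices, slot by slot -/

/-- the `k`-th row of a matrix -/
def row (n X k : ℕ) : ℕ := (X >>> (n * k)) % 2 ^ n

theorem row_lt (n X k : ℕ) : row n X k < 2 ^ n := Nat.mod_lt _ (by positivity)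

/-- the packed rows `m - 1, …, 0` of the matrices `X 0, …, X (K - 1)` -/
def rowsL (n : ℕ) (X : ℕ → ℕ) (K : ℕ) : ℕ → List (ℕ × ℕ)
  | 0 => []
  | m + 1 => (m, blk n (fun s => row n (X s) m) K) :: rowsL n X K m

/-- product, slot by slot -/
def sgo (M ones Y : ℕ) (L : List (ℕ × ℕ)) : ℕ :=
  List.rec 0 (fun p _ ih => Nat.xor (Nat.land (Nat.mul (Nat.land (Nat.shiftRight Y p.1) M) ones)
    p.2) ih) L

theorem sgo_cons (M ones Y : ℕ) (p : ℕ × ℕ) (L : List (ℕ × ℕ)) :
    sgo M ones Y (p :: L) = ((((Y >>> p.1) &&& M) * ones) &&& p.2) ^^^ sgo M ones Y L := rfl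

theorem sgo_spec {n K : ℕ} (hn : 0 < n) {y : ℕ → ℕ} (hy : ∀ s < K, y s < 2 ^ n) (X : ℕ → ℕ)
    (m : ℕ) (hm : m ≤ n) :
    sgo (blk n (fun _ => 1) K) (2 ^ n - 1) (blk n y K) (rowsL n X K m) =
      blk n (fun s => vmulAux n (y s) (X s) m) K := by
  induction m with
  | zero =>
    have e : rowsL n X K 0 = [] := rfl
    rw [e]
    have e2 : sgo (blk n (fun _ => 1) K) (2 ^ n - 1) (blk n y K) [] = 0 := rfl
    rw [e2]
    have : ∀ K, blk n (fun s => vmulAux n (y s) (X s) 0) K = 0 := by
      intro K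
      induction K with
      | zero => rfl
      | succ K ih => rw [blk, ih]; simp [vmulAux]
    exact (this K).symm
  | succ m ih =>
    rw [rowsL, sgo_cons, ih (by omega), blk_bit hn K hy (by omega), blk_mul, blk_and hn, blk_xor hn]
    · refine blk_congr K fun s _ => ?_
      rw [toNat_mul_ones_and _ (row_lt _ _ _), vmulAux_succ, term_one_eq, Nat.xor_comm]
      rfl
    · intro s _
      refine lt_of_le_of_lt Nat.and_le_right (row_lt _ _ _)
    · exact fun s _ => vmulAux_lt _ _ _
    · intro s _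
      cases (y s).testBit m
      · simp
      · have : (2 : ℕ) ^ n - 1 < 2 ^ n := Nat.sub_lt (by positivity) one_pos
        simpa using this
    · exact fun s _ => row_lt _ _ _

theorem sgo_eq {n K : ℕ} (hn : 0 < n) {y : ℕ → ℕ} (hy : ∀ s < K, y s < 2 ^ n) (X : ℕ → ℕ) :
    sgo (blk n (fun _ => 1) K) (2 ^ n - 1) (blk n y K) (rowsL n X K n) =
      blk n (fun s => vmul n (y s) (X s)) K := by
  rw [sgo_spec hn hy X n le_rfl]
  exact blk_congr K fun s _ => (vmul_eq _ _ _).symm

/-! ### Counting the zero slots -/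

/-- bit 0 of every nonzero slot -/
def nzAux (M D : ℕ) (k : ℕ) : ℕ :=
  Nat.rec 0 (fun k ih => Nat.lor ih (Nat.land (Nat.shiftRight D k) M)) k

theorem nzAux_spec {n K : ℕ} (hn : 0 < n) {d : ℕ → ℕ} (hd : ∀ s < K, d s < 2 ^ n) (k : ℕ)
    (hk : k ≤ n) : nzAux (blk n (fun _ => 1) K) (blk n d K) k =
      blk n (fun s => if d s % 2 ^ k = 0 then 0 else 1) K := by
  have hlt : ∀ k s, (if d s % 2 ^ k = 0 then 0 else 1) < 2 ^ n := by
    intro k s
    have := Nat.one_lt_two_pow (n := n) (by omega)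
    split_ifs <;> omega
  induction k with
  | zero =>
    have : ∀ K, blk n (fun s => if d s % 2 ^ 0 = 0 then 0 else 1) K = 0 := by
      intro K
      induction K with
      | zero => rfl
      | succ K ih => rw [blk, ih]; simp [Nat.mod_one]
    rw [this]; rfl
  | succ k ih =>
    have e : nzAux (blk n (fun _ => 1) K) (blk n d K) (k + 1) =
      nzAux (blk n (fun _ => 1) K) (blk n d K) k ||| ((blk n d K >>> k) &&& blk n (fun _ => 1) K) :=
      rfl
    rw [e, ih (by omega), blk_bit hn K hd (by omega), blk_or hn K (fun s _ => hlt k s) fun s _ =>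
      lt_of_le_of_lt (Bool.toNat_le _) (Nat.one_lt_two_pow (by omega))]
    refine blk_congr K fun s _ => ?_
    have e1 : d s % 2 ^ (k + 1) = d s % 2 ^ k + 2 ^ k * ((d s).testBit k).toNat := by
      rw [Nat.toNat_testBit, ← Nat.mod_pow_succ]
    have h2 : 0 < 2 ^ k := by positivity
    cases h : (d s).testBit k
    · rw [h] at e1
      simp only [Bool.toNat_false, mul_zero, add_zero] at e1
      rw [e1]
      simp
    · rw [h] at e1
      simp only [Bool.toNat_true, mul_one] at e1
      have h3 : d s % 2 ^ (k + 1) ≠ 0 := by omega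
      rw [if_neg h3]
      split_ifs <;> rfl

theorem nzAux_eq {n K : ℕ} (hn : 0 < n) {d : ℕ → ℕ} (hd : ∀ s < K, d s < 2 ^ n) :
    nzAux (blk n (fun _ => 1) K) (blk n d K) n = blk n (fun s => if d s = 0 then 0 else 1) K := by
  rw [nzAux_spec hn hd n le_rfl]
  refine blk_congr K fun s hs => ?_
  rw [Nat.mod_eq_of_lt (hd s hs)]

theorem blk_mod (n : ℕ) (a : ℕ → ℕ) (K : ℕ) :
    blk n a K ≡ ∑ s ∈ Finset.range K, a s [MOD 2 ^ n - 1] := by
  induction K with
  | zero => exact Nat.ModEq.refl _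
  | succ K ih =>
    rw [blk, Finset.sum_range_succ]
    refine ih.add ?_
    have h1 : 2 ^ n ≡ 1 [MOD 2 ^ n - 1] := by
      have h2 : 2 ^ n = 1 + (2 ^ n - 1) := by
        have : 0 < 2 ^ n := by positivity
        omega
      conv_lhs => rw [h2]
      exact Nat.add_mod_right _ _
    have h3 : 2 ^ (n * K) ≡ 1 [MOD 2 ^ n - 1] := by
      rw [pow_mul]
      simpa using h1.pow K
    simpa using (Nat.ModEq.refl (a K)).mul h3

theorem count_eq {n K : ℕ} {d : ℕ → ℕ} (hK : K < 2 ^ n - 1) :
    blk n (fun s => if d s = 0 then 0 else 1) K % (2 ^ n - 1) +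
      ((Finset.range K).filter fun s => d s = 0).card = K := by
  have h1 := blk_mod n (fun s => if d s = 0 then 0 else 1) K
  have h2 : ∑ s ∈ Finset.range K, (if d s = 0 then 0 else 1) =
      ((Finset.range K).filter fun s => ¬ d s = 0).card := by
    rw [Finset.card_eq_sum_ones, Finset.sum_filter]
    refine Finset.sum_congr rfl fun s _ => ?_
    by_cases h : d s = 0 <;> simp [h]
  have h3 := Finset.card_filter_add_card_filter_not (s := Finset.range K) (fun s => d s = 0)
  rw [Finset.card_range] at h3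
  have h4 : blk n (fun s => if d s = 0 then 0 else 1) K % (2 ^ n - 1) =
      ((Finset.range K).filter fun s => ¬ d s = 0).card := by
    rw [← h2]
    have h5 : (∑ s ∈ Finset.range K, if d s = 0 then 0 else 1) < 2 ^ n - 1 := by
      rw [h2]; omega
    exact Nat.mod_eq_of_modEq h1 h5
  omega

/-! ### Packing -/

/-- the `k`-th rows of the matrices of a list, at distance `st`; `nk = n * k` -/
def pack (ones st nk : ℕ) (L : List ℕ) : ℕ :=
  List.rec 0 (fun A _ ih => Nat.add (Nat.land (Nat.shiftRight A nk) ones) (Nat.shiftLeft ih st)) L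

theorem pack_eq (n st k : ℕ) (L : List ℕ) :
    pack (2 ^ n - 1) st (n * k) L = blk st (fun c => row n (L.getD c 0) k) L.length := by
  induction L with
  | nil => rfl
  | cons A L ih =>
    have e : pack (2 ^ n - 1) st (n * k) (A :: L) =
      ((A >>> (n * k)) &&& (2 ^ n - 1)) + (pack (2 ^ n - 1) st (n * k) L) <<< st := rfl
    rw [e, ih, List.length_cons, blk_head, Nat.and_two_pow_sub_one_eq_mod, Nat.shiftLeft_eq]
    rfl

theorem blk_mul_rep (n H : ℕ) (a : ℕ → ℕ) (C : ℕ) :
    blk (n * H) a C * blk n (fun _ => 1) H = blk n (fun s => a (s / H)) (H * C) := by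
  rcases Nat.eq_zero_or_pos H with rfl | hH
  · simp [blk]
  induction C with
  | zero => simp [blk]
  | succ C ih =>
    rw [blk, add_mul, ih, Nat.mul_succ, blk_add]
    congr 1
    have e1 : blk n (fun i => a ((H * C + i) / H)) H = blk n (fun _ => a C) H := by
      refine blk_congr H fun i hi => ?_
      rw [Nat.mul_add_div hH, Nat.div_eq_of_lt hi, Nat.add_zero]
    have e2 : blk n (fun _ => a C) H = blk n (fun _ => 1) H * a C := by
      rw [blk_mul]; exact blk_congr H fun i _ => (one_mul _).symm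
    rw [e1, e2, mul_assoc n H C]
    ring

theorem blk_mul_rep' (n H : ℕ) (q : ℕ → ℕ) (C : ℕ) :
    blk n q H * blk (n * H) (fun _ => 1) C = blk n (fun s => q (s % H)) (H * C) := by
  rcases Nat.eq_zero_or_pos H with rfl | hH
  · simp [blk]
  induction C with
  | zero => simp [blk]
  | succ C ih =>
    rw [blk, mul_add, ih, Nat.mul_succ, blk_add]
    congr 1
    have e1 : blk n (fun i => q ((H * C + i) % H)) H = blk n q H := by
      refine blk_congr H fun i hi => ?_
      rw [Nat.mul_add_mod, Nat.mod_eq_of_lt hi]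
    rw [e1, mul_assoc n H C]
    ring

end Cfsg.Agent.H440.J4P.Slots
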