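import Cfsg.Agent.H440.J4P.Cover

/-!
# The vectors of the parity count for J4
-/

set_option autoImplicit false

open Cfsg

noncomputable section

namespace Cfsg.Agent.H440.J4P.VLevel

open Cfsg.Agent.Lib Cfsg.Agent.Lib.F2MatGroup
open Cfsg.Agent.J4.Rep112 Cfsg.Agent.J4.Pres Cfsg.Agent.J4.M24Hom Cfsg.Agent.J4.Nodes
open Cfsg.Agent.J4.Beta Cfsg.Agent.J4.Classes Cfsg.Agent.J4.ClassesData Cfsg.Agent.J4.Invol
open Cfsg.Agent.J4.Lower Cfsg.Agent.J4.ClassesAbs Cfsg.Agent.J4.LowerData Cfsg.Agent.H858.VK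
open Cfsg.Agent.H440.J4P.Mats Cfsg.Agent.H440.J4P.Words Cfsg.Agent.H440.J4P.Cover
open Cfsg.Agent.H440.J4P.RepDef

/-! ### Matrices of words -/

/-- matrix of `p` -/
def MP : List ℕ := [1580, 988, 340, 413, 81, 402, 1579, 2008, 1275, 1253, 903]
/-- matrix of `p⁻¹` -/
def MPi : List ℕ := [319, 1147, 1285, 105, 535, 743, 824, 610, 1070, 525, 1415]
/-- matrix of `h` -/
def MH : List ℕ := [1, 1365, 891, 1709, 16, 583, 2045, 1370, 1957, 498, 816]

theorem isMat_p : IsMat (psi pM) MP := by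
  have h : mat wp = MP := by decide +kernel
  rw [← h]
  exact isMat_word wp

theorem isMat_pi : IsMat (psi pM⁻¹) MPi := by
  have h : mat (invw wp) = MPi := by decide +kernel
  rw [← h]
  have h2 : pM⁻¹ = wordG (invw wp) := (wordG_invw wp).symm
  rw [h2]
  exact isMat_word _

theorem isMat_h : IsMat (psi hM) MH := by
  have h : mat wh = MH := by decide +kernel
  rw [← h]
  exact isMat_word wh

/-- matrices of the letters -/
def LM : List (List ℕ) := [MP, MPi, MH]

theorem isMat_one : IsMat 1 (p2 11) := by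
  have h := forall₂_p2_aux qs
  rw [qs_len] at h
  refine h.imp ?_
  intro a c h1
  rw [← h1]; group

/-- matrix of a word -/
def evM : List ℕ → List ℕ
  | [] => p2 11
  | a :: w => (evM w).map (lin (LM.getD a (p2 11)))

theorem isMat_LM (i : ℕ) : IsMat (psi (getG LD i)) (LM.getD i (p2 11)) := by
  match i with
  | 0 => exact isMat_p
  | 1 => exact isMat_pi
  | 2 => exact isMat_h
  | n + 3 =>
    have h : psi (getG LD (n + 3)) = 1 := map_one psi
    rw [h]
    exact isMat_one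

theorem isMat_ev (w : List ℕ) : IsMat (psi (evG LD w)) (evM w) := by
  induction w with
  | nil =>
    rw [evG_nil, map_one]
    exact isMat_one
  | cons a w ih =>
    rw [evG_cons, map_mul]
    exact isMat_mul (isMat_LM a) ih

/-- the matrices of the three involutions -/
def MX (k : ℕ) : List ℕ := evM (wX.getD k [])

theorem isMat_X {k : ℕ} (hk : k < 3) : IsMat (psi (mX k)) (MX k) := by
  have h2 : mX k = evG LD (wX.getD k []) := by
    unfold mX
    rw [if_pos hk]
  rw [h2]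
  exact isMat_ev _

theorem mX_sq {k : ℕ} (hk : k < 3) : mX k * mX k = 1 := by
  have h2 : ∀ k, k < 3 → mX k = evG LD (wX.getD k []) := by
    intro k hk
    unfold mX
    rw [if_pos hk]
  have key : ∀ w : List ℕ, evP LP w = evP LP [] → evG LD w = 1 := by
    intro w hw
    have h3 := rep_word' w
    rw [hw] at h3
    exact Cfsg.Agent.J4.Packed.rep_inj h3 (rep_word' [])
  have h4 : ∀ k < 3, evP LP (wX.getD k [] ++ wX.getD k []) = evP LP [] := by decide +kernel
  have h5 := key _ (h4 k hk)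
  rw [evG_append] at h5
  rw [h2 k hk, h5]

theorem mX_ne {k : ℕ} (hk : k < 3) : mX k ≠ 1 := by
  intro h
  have h2 : mX k = evG LD (wX.getD k []) := by
    unfold mX
    rw [if_pos hk]
  have h1 := rep_word' (wX.getD k [])
  rw [← h2, h] at h1
  have h3 : ∀ k < 3, evP LP (wX.getD k []) < 2 ^ 192 ∧ evP LP (wX.getD k []) ≠
      Cfsg.Agent.J4.Packed.ID := by decide +kernel
  have h4 : Cfsg.Agent.J4.Packed.ID < 2 ^ 192 := by decide +kernel
  exact (h3 k hk).2 (rep_unique h1 Cfsg.Agent.J4.Packed.rep_one (h3 k hk).1 h4)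

theorem mX_duad {k : ℕ} (hk : k < 3) :
    (mX k : Equiv.Perm GolayPt) ∈ Cfsg.Agent.BabyM.DuadGen.duad := by
  have h2 : mX k = evG LD (wX.getD k []) := by
    unfold mX
    rw [if_pos hk]
  rw [h2]
  apply closure_le_duad
  exact evG_mem _ (fun g hg => by
    simp only [LD, List.mem_cons, List.not_mem_nil, or_false] at hg
    rcases hg with rfl | rfl | rfl
    · exact Subgroup.subset_closure (Or.inl rfl)
    · exact Subgroup.inv_mem _ (Subgroup.subset_closure (Or.inl rfl))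
    · exact Subgroup.subset_closure (Or.inr rfl)) _

/-! ### The elementary abelian group -/

theorem eJ_zero : eJ 0 = 1 := by
  apply rho_injective
  rw [rho_eJ, map_one]
  exact beta_zero qs

theorem eJ_xor (v w : ℕ) : eJ (v ^^^ w) = eJ v * eJ w := by
  apply rho_injective
  rw [map_mul, rho_eJ, rho_eJ, rho_eJ]
  exact beta_xor qs hyp.sq hyp.comm v w

theorem eJ_sq (v : ℕ) : eJ v * eJ v = 1 := EJ_sq rho_injective _ (eJ_mem v)

theorem eJ_comm (v w : ℕ) : eJ v * eJ w = eJ w * eJ v :=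
  EJ_comm rho_injective _ _ (eJ_mem v) (eJ_mem w)

theorem eJ_inj {v w : ℕ} (hv : v < 2048) (hw : w < 2048) (h : eJ v = eJ w) : v = w := by
  have h1 := congrArg rho h
  rw [rho_eJ, rho_eJ] at h1
  exact beta_inj hyp.sq hyp.comm hyp.ind (by rw [qs_len]; exact hv) (by rw [qs_len]; exact hw) h1

theorem exists_eJ {e : Cfsg.Spor.J4} (he : e ∈ EJ) : ∃ v < 2048, e = eJ v := by
  obtain ⟨v, hv, h⟩ := exists_beta hyp.sq hyp.comm ((mem_EJ_iff rho_injective _).mp he)
  rw [qs_len] at hv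
  exact ⟨v, hv, rho_injective (by rw [h, rho_eJ])⟩

theorem conj_eJ {g : M24} {M : List ℕ} (h : IsMat (psi g) M) (v : ℕ) :
    phi g * eJ v * (phi g)⁻¹ = eJ (lin M v) := by
  apply rho_injective
  rw [map_mul, map_mul, map_inv, rho_eJ, rho_eJ]
  exact isMat_apply h v

/-- Uniqueness of the decomposition. -/
theorem mul_inj {v w : ℕ} {m m' : M24} (h : eJ v * phi m = eJ w * phi m') :
    eJ v = eJ w ∧ m = m' := by
  have h1 : (eJ w)⁻¹ * eJ v = phi (m' * m⁻¹) := by
    rw [map_mul, map_inv, eq_mul_inv_iff_mul_eq, mul_assoc, h, inv_mul_cancel_left]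
  have h2 : (eJ w)⁻¹ * eJ v = 1 := inf_eq_one _ (EJ.mul_mem (EJ.inv_mem (eJ_mem w)) (eJ_mem v))
    ⟨_, h1.symm⟩
  refine ⟨(inv_mul_eq_one.1 h2).symm, ?_⟩
  have h3 : m' * m⁻¹ = 1 := phi_injective (by rw [← h1, h2, map_one])
  exact (mul_inv_eq_one.1 h3).symm

theorem lin_lt_of {M : List ℕ} (hM : (M.all fun a => Nat.blt a 2048) = true) (v : ℕ) :
    lin M v < 2048 := by
  apply lin_lt
  rw [List.all_eq_true] at hM
  intro a ha
  have := hM a ha
  rwa [Nat.blt_eq] at this

/-! ### Conjugacy with `s` -/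

/-- conjugate to `s` by an element of the image -/
def CS (z : GL (Fin 112) (ZMod 2)) : Prop := ∃ g ∈ rho.range, g * z * g⁻¹ = beta qs 1024

theorem isConj_s_iff {z : Cfsg.Spor.J4} : IsConj s z ↔ CS (rho z) := by
  constructor
  · intro h
    obtain ⟨g, hg⟩ := isConj_iff.1 h.symm
    refine ⟨rho g, ⟨g, rfl⟩, ?_⟩
    rw [← map_mul, ← map_inv, ← map_mul, hg, rho_s]
  · rintro ⟨_, ⟨g, rfl⟩, h⟩
    apply IsConj.symm
    rw [isConj_iff]
    refine ⟨g, rho_injective ?_⟩
    rw [map_mul, map_mul, map_inv, h, rho_s]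

theorem cs_conj {z g : GL (Fin 112) (ZMod 2)} (hg : g ∈ rho.range) : CS (g * z * g⁻¹) ↔ CS z := by
  constructor
  · rintro ⟨c, hc, h⟩
    refine ⟨c * g, rho.range.mul_mem hc hg, ?_⟩
    rw [← h]; group
  · rintro ⟨c, hc, h⟩
    refine ⟨c * g⁻¹, rho.range.mul_mem hc (rho.range.inv_mem hg), ?_⟩
    rw [← h]; group

theorem not_cs_of {z g : GL (Fin 112) (ZMod 2)} (h : g * z * g⁻¹ = beta qs 5) : ¬ CS z := by
  rintro ⟨c, hc, h'⟩
  have h1 : c * g⁻¹ * beta qs 5 * (c * g⁻¹)⁻¹ = beta qs 1024 := by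
    rw [← h', ← h]; group
  have h2 : (c * g⁻¹)⁻¹ * beta qs 1024 * (c * g⁻¹)⁻¹⁻¹ = beta qs 5 := by
    rw [← h1]; group
  exact Cfsg.Agent.J4.NonConj.not_conj _ h2

theorem rep_conj {im v : ℕ} {r : ℕ × ℕ × ℕ × ℕ × List ℕ × List ℕ × ℕ}
    (h : repOk eqsC im v r = true) : ∃ g ∈ rho.range,
      g * (beta qs v * getG LC im) * g⁻¹ = getG LC r.2.2.2.2.2.2 := by
  unfold repOk at h
  rw [Bool.and_eq_true, Bool.and_eq_true, Bool.and_eq_true, List.contains_iff_mem,
    List.contains_iff_mem, List.contains_iff_mem, Bool.or_eq_true, Nat.beq_eq, Nat.beq_eq] at h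
  obtain ⟨⟨⟨h1, h2⟩, h3⟩, h4⟩ := h
  have e1 := eqC _ h1
  have e2 := eqC _ h2
  have e3 := eqC _ h3
  simp only [evG_append, evG_single, abs_bw (L := LC) qs_length getG_LC] at e1
  simp only [evG_append, evG_cons, evG_nil, mul_one] at e2
  simp only [evG_append, evG_nil] at e3
  rw [← e1]
  have hu : getG LC r.2.2.1 ∈ rho.range := getG_mem _ LC_mem _
  have hp : getG LC r.2.2.2.1 ∈ rho.range := getG_mem _ LC_mem _
  have hw : evG LC r.2.2.2.2.2.1 ∈ rho.range := evG_mem _ LC_mem _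
  have hw' : evG LC r.2.2.2.2.1 = (evG LC r.2.2.2.2.2.1)⁻¹ := eq_inv_of_mul_eq_one_left e3
  rw [hw'] at e2
  generalize getG LC r.2.2.1 = u at *
  generalize getG LC r.2.2.2.1 = p at *
  generalize evG LC r.2.2.2.2.2.1 = w at *
  refine ⟨w * p⁻¹, rho.range.mul_mem hw (rho.range.inv_mem hp), ?_⟩
  have : w * p⁻¹ * u * (w * p⁻¹)⁻¹ = w * p⁻¹ * (u * p) * w⁻¹ := by group
  rw [this, e2]; group

/-- the classes of the representatives -/
def repCls (im v0 : ℕ) (vs : List ℕ) : Bool :=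
  vs.all fun v => reps.any fun r => repOk eqsC im v r &&
    cond (Nat.beq v v0) (Nat.beq r.2.2.2.2.2.2 52) (Nat.beq r.2.2.2.2.2.2 40)

theorem repCls1 : repCls 41 0 [0, 34, 517, 551, 1047, 1077, 1554, 1584] = true := by decide +kernel
theorem repCls2 : repCls 55 5 [0, 5] = true := by decide +kernel

theorem repCls_sound {im v0 : ℕ} {vs : List ℕ} (h : repCls im v0 vs = true) {v : ℕ} (hv : v ∈ vs) :
    CS (beta qs v * getG LC im) ↔ v = v0 := by
  unfold repCls at h
  rw [List.all_eq_true] at h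
  have h1 := h v hv
  rw [List.any_eq_true] at h1
  obtain ⟨r, -, h2⟩ := h1
  rw [Bool.and_eq_true] at h2
  obtain ⟨g, hg, h3⟩ := rep_conj h2.1
  rcases hb : Nat.beq v v0 with _ | _
  · rw [hb, cond_false, Nat.beq_eq] at h2
    rw [h2.2, getG_40] at h3
    constructor
    · intro h4
      exact absurd h4 (not_cs_of h3)
    · rintro rfl
      rw [Nat.beq_refl] at hb
      exact absurd hb (by decide)
  · rw [hb, cond_true, Nat.beq_eq] at h2
    rw [h2.2, getG_52] at h3
    exact ⟨fun _ => Nat.eq_of_beq_eq_true hb, fun _ => ⟨g, hg, h3⟩⟩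

/-- the class, from the table -/
def isA (T : List (ℕ × ℕ × ℕ)) (v0 u : ℕ) : Bool :=
  T.any fun t => Nat.beq t.1 u && Nat.beq t.2.1 v0

theorem fixOk_all {A : List ℕ} {T : List (ℕ × ℕ × ℕ)} {vs : List ℕ} (h : fixOk A T vs = true) :
    ∀ t ∈ T, t.1 = (t.2.1 ^^^ t.2.2) ^^^ lin A t.2.2 ∧ t.2.1 ∈ vs := by
  unfold fixOk at h
  rw [Bool.and_eq_true, List.all_eq_true, List.all_eq_true] at h
  intro t ht
  have h5 := h.2 t ht
  rw [Bool.and_eq_true, List.any_eq_true, Nat.beq_eq] at h5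
  obtain ⟨h5, w, hw, h6⟩ := h5
  rw [Nat.beq_eq] at h6
  exact ⟨h5, h6 ▸ hw⟩

theorem fixOk_ex {A : List ℕ} {T : List (ℕ × ℕ × ℕ)} {vs : List ℕ} (h : fixOk A T vs = true)
    {v : ℕ} (hv : v < 2048) (hA : lin A v = v) : ∃ t ∈ T, t.1 = v := by
  unfold fixOk at h
  rw [Bool.and_eq_true, List.all_eq_true, List.all_eq_true] at h
  have h3 := h.1 v (List.mem_range.mpr hv)
  rw [Bool.or_eq_true, List.any_eq_true] at h3
  rcases h3 with h3 | ⟨t, ht, h4⟩
  · rw [hA, Nat.beq_refl] at h3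
    exact absurd h3 (by decide)
  · exact ⟨t, ht, Nat.eq_of_beq_eq_true h4⟩

theorem cs_entry {m : GL (Fin 112) (ZMod 2)} {A : List ℕ}
    (hact : ∀ v, m * beta qs v * m⁻¹ = beta qs (lin A v)) (vj r : ℕ) :
    CS (beta qs ((vj ^^^ r) ^^^ lin A r) * m) ↔ CS (beta qs vj * m) := by
  have hrR : beta qs r ∈ rho.range := beta_mem _ qs qs_mem r
  have e0 : (beta qs r)⁻¹ * (beta qs ((vj ^^^ r) ^^^ lin A r) * m) * (beta qs r)⁻¹⁻¹ =
      beta qs vj * m := by
    rw [beta_xor qs hyp.sq hyp.comm, beta_xor qs hyp.sq hyp.comm, ← hact]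
    have hc : beta qs vj * beta qs r = beta qs r * beta qs vj := by
      rw [← beta_xor qs hyp.sq hyp.comm, Nat.xor_comm, beta_xor qs hyp.sq hyp.comm]
    rw [hc]
    have e : (beta qs r)⁻¹ * (beta qs r * beta qs vj * (m * beta qs r * m⁻¹) * m) *
        (beta qs r)⁻¹⁻¹ = beta qs vj * m * (beta qs r * beta qs r) := by group
    rw [e, beta_sq qs hyp.sq hyp.comm, mul_one]
  rw [← e0]
  exact (cs_conj (rho.range.inv_mem hrR)).symm

theorem cs_iff {m : GL (Fin 112) (ZMod 2)} {A : List ℕ}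
    (hact : ∀ v, m * beta qs v * m⁻¹ = beta qs (lin A v)) {T : List (ℕ × ℕ × ℕ)} {vs : List ℕ}
    (hfix : fixOk A T vs = true) {v0 : ℕ} (hrep : ∀ v ∈ vs, CS (beta qs v * m) ↔ v = v0)
    {u : ℕ} (hu : u < 2048) (hA : lin A u = u) : CS (beta qs u * m) ↔ isA T v0 u = true := by
  have key : ∀ t ∈ T, t.1 = u → (CS (beta qs u * m) ↔ t.2.1 = v0) := by
    intro t ht htu
    obtain ⟨h1, h2⟩ := fixOk_all hfix t ht
    rw [← htu, h1, cs_entry hact, hrep _ h2]
  constructor
  · intro h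
    obtain ⟨t, ht, htu⟩ := fixOk_ex hfix hu hA
    unfold isA
    rw [List.any_eq_true]
    refine ⟨t, ht, ?_⟩
    rw [Bool.and_eq_true, Nat.beq_eq, Nat.beq_eq]
    exact ⟨htu, (key t ht htu).1 h⟩
  · intro h
    unfold isA at h
    rw [List.any_eq_true] at h
    obtain ⟨t, ht, h1⟩ := h
    rw [Bool.and_eq_true, Nat.beq_eq, Nat.beq_eq] at h1
    exact (key t ht h1.1).2 h1.2

/-- words of conjugating elements -/
def wc : List (List ℕ) :=
  [[2, 0, 2, 0, 2, 0, 2, 0, 1, 0, 1, 0, 1, 0, 2, 0, 1, 0, 1, 0, 1, 0, 1],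
   [2, 0, 1, 0, 2, 0, 2, 0, 2, 0, 2, 0, 1, 0, 1, 0, 1, 0, 2, 0, 2, 0, 1, 0, 2, 0, 1, 0],
   [0, 2, 0, 1, 0, 2, 0, 1, 0, 2, 0, 1, 0, 1, 0, 1, 0, 2, 0, 1, 0, 1, 0, 1, 0]]

/-- matrices of the standard involutions -/
def AS (k : ℕ) : List ℕ := cond (Nat.beq k 1) Ax A1
/-- tables of the standard involutions -/
def TS (k : ℕ) : List (ℕ × ℕ × ℕ) := cond (Nat.beq k 1) fix2 fix1
/-- vector of the class of `s` -/
def VS (k : ℕ) : ℕ := cond (Nat.beq k 1) 5 0
/-- words of the standard involutions -/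
def WS (k : ℕ) : List ℕ := cond (Nat.beq k 1) [0] w1

theorem conj_std {k : ℕ} (hk : k < 3) :
    wordG (wc.getD k []) * mX k * (wordG (wc.getD k []))⁻¹ = wordG (WS k) := by
  have h2 : mX k = evG LD (wX.getD k []) := by
    unfold mX
    rw [if_pos hk]
  rw [h2, ← wordG_invw]
  have h3 := Cfsg.Agent.J4.Packed.rep_mul (Cfsg.Agent.J4.Packed.rep_mul (rep_word (wc.getD k []))
    (rep_word' (wX.getD k []))) (rep_word (invw (wc.getD k [])))
  have h4 : ∀ k < 3, Cfsg.Agent.J4.Packed.pmul (Cfsg.Agent.J4.Packed.pmul (wordP (wc.getD k []))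
      (evP LP (wX.getD k []))) (wordP (invw (wc.getD k []))) = wordP (WS k) := by decide +kernel
  rw [h4 k hk] at h3
  exact Cfsg.Agent.J4.Packed.rep_inj h3 (rep_word _)

theorem cs_std1 {u : ℕ} (hu : u < 2048) (hA : lin A1 u = u) :
    CS (beta qs u * psi (wordG w1)) ↔ isA fix1 0 u = true := by
  have e : wordG w1 = Cfsg.Agent.SporadicStructure.M24El.el Cfsg.Agent.J4.M24InvolData.P1 := by
    rw [el_P1, evG_eq_wordG _ (by decide)]
  rw [e]
  exact cs_iff act1 fix1_ok (fun v hv => by rw [← getG_41]; exact repCls_sound repCls1 hv) hu hA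

theorem cs_std2 {u : ℕ} (hu : u < 2048) (hA : lin Ax u = u) :
    CS (beta qs u * psi (wordG [0])) ↔ isA fix2 5 u = true := by
  have hX : wordG [0] = XM := mul_one _
  rw [hX]
  refine cs_iff hyp.actX fix2_ok (fun v hv => ?_) hu hA
  have h := repCls_sound repCls2 hv
  rwa [getX, ← psi_X] at h

theorem cs_std {k : ℕ} (hk : k < 3) {u : ℕ} (hu : u < 2048) (hA : lin (AS k) u = u) :
    CS (beta qs u * psi (wordG (WS k))) ↔ isA (TS k) (VS k) u = true := by
  match k, hk, hA with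
  | 0, _, hA => exact cs_std1 hu hA
  | 1, _, hA => exact cs_std2 hu hA
  | 2, _, hA => exact cs_std1 hu hA

/-! ### The set `S` -/

/-- The involutions `a` commuting with `t` such that `a t` is conjugate to `s`. -/
def S (a : Cfsg.Spor.J4) : Prop := a * a = 1 ∧ a * tJ = tJ * a ∧ IsConj s (a * tJ)

theorem phi_eJ {m : M24} {M : List ℕ} (hM : IsMat (psi m) M) (v : ℕ) :
    phi m * eJ v = eJ (lin M v) * phi m := by
  rw [← conj_eJ hM]; group

theorem S_mul_iff {m : M24} {M : List ℕ} (hM : IsMat (psi m) M) (hm : m * m = 1)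
    (h1 : lin M 1010 = 1010) (hlt : (M.all fun a => Nat.blt a 2048) = true) {v : ℕ}
    (hv : v < 2048) :
    S (eJ v * phi m) ↔ lin M v = v ∧ CS (beta qs (v ^^^ 1010) * psi m) := by
  have e1 : eJ v * phi m * (eJ v * phi m) = eJ v * eJ (lin M v) := by
    calc eJ v * phi m * (eJ v * phi m) = eJ v * (phi m * eJ v) * phi m := by group
      _ = eJ v * eJ (lin M v) * (phi m * phi m) := by rw [phi_eJ hM]; group
      _ = eJ v * eJ (lin M v) := by rw [← map_mul, hm, map_one, mul_one]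
  have e2 : eJ v * phi m * tJ = eJ (v ^^^ 1010) * phi m := by
    unfold tJ
    rw [mul_assoc, phi_eJ hM, h1, ← mul_assoc, eJ_xor]
  have e3 : tJ * (eJ v * phi m) = eJ (v ^^^ 1010) * phi m := by
    unfold tJ
    rw [← mul_assoc, eJ_comm, eJ_xor]
  have e4 : rho (eJ (v ^^^ 1010) * phi m) = beta qs (v ^^^ 1010) * psi m := by
    rw [map_mul, rho_eJ]; rfl
  unfold S
  rw [e1, e2, e3, isConj_s_iff, e4]
  constructor
  · rintro ⟨h2, -, h3⟩
    refine ⟨?_, h3⟩
    have h4 : eJ v = eJ (lin M v) := mul_left_cancel ((eJ_sq v).trans h2.symm)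
    exact (eJ_inj hv (lin_lt_of hlt v) h4).symm
  · rintro ⟨h2, h3⟩
    refine ⟨?_, rfl, h3⟩
    rw [h2, eJ_sq]

/-- matrices of the conjugating elements -/
def MC (k : ℕ) : List ℕ := mat (wc.getD k [])

/-- check of the lists of vectors -/
def chkCls (k : ℕ) (M C : List ℕ) : Bool :=
  (List.range 2048).all fun v => cond (Nat.beq (lin M v) v)
    (cond (Nat.beq (lin (AS k) (lin C (Nat.xor v 1010))) (lin C (Nat.xor v 1010)))
      (isA (TS k) (VS k) (lin C (Nat.xor v 1010)) == (vl k).any fun w => Nat.beq v w) false)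
    (!((vl k).any fun w => Nat.beq v w))

theorem chk_fix : ∀ k < 3, Nat.beq (lin (MX k) 1010) 1010 = true ∧
    ((MX k).all fun a => Nat.blt a 2048) = true ∧
    ((MC k).all fun a => Nat.blt a 2048) = true := by decide +kernel

/-- evaluate a list of numbers -/
def flist (L : List ℕ) (k : List ℕ → Bool) : Bool :=
  @List.rec ℕ (fun _ => (List ℕ → Bool) → Bool) (fun k => k [])
    (fun a _ ih k => F2Mat.force a fun a => ih fun L => k (a :: L)) L k

theorem flist_eq (L : List ℕ) (k : List ℕ → Bool) : flist L k = k L := by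
  induction L generalizing k with
  | nil => rfl
  | cons a L ih =>
    have e : flist (a :: L) k = F2Mat.force a fun a => flist L fun L => k (a :: L) := rfl
    rw [e, F2Mat.force_eq, ih]

theorem chk0 : flist (MX 0) (fun M => flist (MC 0) fun C => chkCls 0 M C) = true := by
  decide +kernel
theorem chk1 : flist (MX 1) (fun M => flist (MC 1) fun C => chkCls 1 M C) = true := by
  decide +kernel
theorem chk2 : flist (MX 2) (fun M => flist (MC 2) fun C => chkCls 2 M C) = true := by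
  decide +kernel

theorem chk_cls {k : ℕ} (hk : k < 3) : chkCls k (MX k) (MC k) = true := by
  match k, hk with
  | 0, _ => have h := chk0; rwa [flist_eq, flist_eq] at h
  | 1, _ => have h := chk1; rwa [flist_eq, flist_eq] at h
  | 2, _ => have h := chk2; rwa [flist_eq, flist_eq] at h

/-- The members of `S` over the three involutions. -/
theorem S_iff {k : ℕ} (hk : k < 3) {v : ℕ} (hv : v < 2048) :
    S (eJ v * phi (mX k)) ↔ v ∈ vl k := by
  obtain ⟨h1, h2, h3⟩ := chk_fix k hk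
  rw [S_mul_iff (isMat_X hk) (mX_sq hk) (Nat.eq_of_beq_eq_true h1) h2 hv]
  have hC : IsMat (psi (wordG (wc.getD k []))) (MC k) := isMat_word _
  have hcR : psi (wordG (wc.getD k [])) ∈ rho.range := psi_le ⟨_, rfl⟩
  have hcs : CS (beta qs (v ^^^ 1010) * psi (mX k)) ↔
      CS (beta qs (lin (MC k) (v ^^^ 1010)) * psi (wordG (WS k))) := by
    rw [← cs_conj hcR]
    have e : psi (wordG (wc.getD k [])) * (beta qs (v ^^^ 1010) * psi (mX k)) *
        (psi (wordG (wc.getD k [])))⁻¹ = beta qs (lin (MC k) (v ^^^ 1010)) *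
          psi (wordG (WS k)) := by
      rw [← conj_std hk, map_mul, map_mul, map_inv, ← isMat_apply hC]
      group
    rw [e]
  rw [hcs]
  have h := chk_cls hk
  unfold chkCls at h
  rw [List.all_eq_true] at h
  have h4 := h v (List.mem_range.2 hv)
  have hx : Nat.xor v 1010 = v ^^^ 1010 := rfl
  rw [hx] at h4
  have hany : ((vl k).any fun w => Nat.beq v w) = true ↔ v ∈ vl k := by
    rw [List.any_eq_true]
    constructor
    · rintro ⟨w, hw, h5⟩
      rwa [Nat.eq_of_beq_eq_true h5]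
    · intro h5
      exact ⟨v, h5, Nat.beq_refl v⟩
  rcases hb : Nat.beq (lin (MX k) v) v with _ | _
  · rw [hb, cond_false, Bool.not_eq_true', ← Bool.not_eq_true, hany] at h4
    constructor
    · rintro ⟨h5, -⟩
      rw [h5, Nat.beq_refl] at hb
      exact absurd hb (by decide)
    · intro h5
      exact absurd h5 h4
  · rw [hb, cond_true] at h4
    rcases hc : Nat.beq (lin (AS k) (lin (MC k) (v ^^^ 1010))) (lin (MC k) (v ^^^ 1010)) with _ | _
    · rw [hc, cond_false] at h4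
      exact absurd h4 (by decide)
    · rw [hc, cond_true, beq_iff_eq] at h4
      rw [cs_std hk (lin_lt_of h3 _) (Nat.eq_of_beq_eq_true hc), h4, hany]
      exact ⟨fun h5 => h5.2, fun h5 => ⟨Nat.eq_of_beq_eq_true hb, h5⟩⟩

/-! ### The elementary abelian part -/

/-- the conjugates of `s` in the elementary abelian group -/
def sx (w : ℕ) : Bool := cond (Nat.beq w 0) false (Nat.blt (tget pos 11 w) 1771)

theorem cs_beta_iff {w : ℕ} (hw : w < 2048) : CS (beta qs w) ↔ sx w = true := by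
  unfold sx
  rcases Nat.eq_zero_or_pos w with rfl | hpos
  · rw [Nat.beq_refl, cond_true]
    constructor
    · rintro ⟨g, -, h⟩
      rw [beta_zero, mul_one, mul_inv_cancel] at h
      exact absurd (beta_inj_one qs_props.2 (by rw [qs_length]; norm_num) h.symm) (by norm_num)
    · intro h; exact absurd h (by decide)
  · have hb : Nat.beq w 0 = false := by
      rw [Bool.eq_false_iff]
      intro h
      rw [Nat.beq_eq] at h
      omega
    rw [hb, cond_false, Nat.blt_eq]
    have h1 := orb_ok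
    unfold orbOk at h1
    rw [Bool.and_eq_true, Bool.and_eq_true, List.all_eq_true, List.all_eq_true] at h1
    have h2 := h1.1.2 w (List.mem_range.mpr hw)
    rw [Bool.or_eq_true, Nat.beq_eq, Bool.and_eq_true, Nat.blt_eq, Nat.beq_eq] at h2
    rcases h2 with h2 | ⟨h2, h3⟩
    · omega
    · obtain ⟨m, hm⟩ := conj_arr hyp _ h2
      rw [h3] at hm
      by_cases hlt : tget pos 11 w < 1771
      · rw [if_pos hlt] at hm
        refine ⟨fun _ => hlt, fun _ => ⟨(psi m)⁻¹, rho.range.inv_mem (psi_le ⟨m, rfl⟩), ?_⟩⟩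
        rw [hm]; group
      · rw [if_neg hlt] at hm
        refine ⟨fun h => absurd h (not_cs_of (g := (psi m)⁻¹) ?_), fun h => absurd h hlt⟩
        rw [hm]; group

theorem isMat_oneM : IsMat (psi 1) (p2 11) := by
  rw [map_one]; exact isMat_one

theorem lin_p2 {v : ℕ} (hv : v < 2048) : lin (p2 11) v = v := by
  have h := isMat_apply isMat_one v
  rw [one_mul, inv_one, mul_one] at h
  exact (beta_inj hyp.sq hyp.comm hyp.ind (by rw [qs_len]; exact hv)
    (by rw [qs_len]; exact lin_lt_of (by decide +kernel) v) h).symm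

/-- The members of `S` in the elementary abelian group. -/
theorem S_iff_one {v : ℕ} (hv : v < 2048) : S (eJ v) ↔ sx (v ^^^ 1010) = true := by
  have h := S_mul_iff isMat_oneM (one_mul 1) (by decide +kernel) (by decide +kernel) hv
  rw [map_one, mul_one, map_one, mul_one] at h
  rw [h, cs_beta_iff (Nat.xor_lt_two_pow (n := 11) hv (by norm_num))]
  exact ⟨fun h1 => h1.2, fun h1 => ⟨lin_p2 hv, h1⟩⟩

/-! ### Odd multiplicities -/

/-- `n` iterates; the values are collected in `acc` -/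
def vwalk (f : ℕ → ℕ) (n : ℕ) : ℕ → ℕ → (ℕ → Bool) → Bool :=
  @Nat.rec (fun _ => ℕ → ℕ → (ℕ → Bool) → Bool) (fun _ acc k => k acc)
    (fun _ ih z acc k => F2Mat.force (Nat.xor acc (Nat.shiftLeft (nat_lit 1) z)) fun acc =>
      F2Mat.force (f z) fun z => ih z acc k) n

theorem vwalk_eq (f : ℕ → ℕ) (n z acc : ℕ) (k : ℕ → Bool) :
    ∃ acc', vwalk f n z acc k = k acc' ∧ ∀ i, F2Mat.bz (acc'.testBit i) =
      F2Mat.bz (acc.testBit i) + ∑ m ∈ Finset.range n, ind (some (f^[m] z) = some i) := by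
  induction n generalizing z acc with
  | zero => exact ⟨acc, rfl, fun i => by simp⟩
  | succ n ih =>
    have e : vwalk f (n + 1) z acc k = F2Mat.force (Nat.xor acc (Nat.shiftLeft 1 z)) fun acc =>
      F2Mat.force (f z) fun z => vwalk f n z acc k := rfl
    rw [e, F2Mat.force_eq, F2Mat.force_eq]
    obtain ⟨acc', h1, h2⟩ := ih (f z) (Nat.xor acc (Nat.shiftLeft 1 z))
    refine ⟨acc', h1, fun i => ?_⟩
    rw [h2 i, bz_acc, Finset.sum_range_succ' _ n, Function.iterate_zero_apply]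
    simp only [Function.iterate_succ_apply]
    ring

/-- in two directions -/
def vwalk2 (g f : ℕ → ℕ) (n1 n : ℕ) : ℕ → ℕ → (ℕ → Bool) → Bool :=
  @Nat.rec (fun _ => ℕ → ℕ → (ℕ → Bool) → Bool) (fun _ acc k => k acc)
    (fun _ ih z acc k => vwalk f n1 z acc fun acc => F2Mat.force (g z) fun z => ih z acc k) n

theorem vwalk2_eq (g f : ℕ → ℕ) (n1 n z acc : ℕ) (k : ℕ → Bool) :
    ∃ acc', vwalk2 g f n1 n z acc k = k acc' ∧ ∀ i, F2Mat.bz (acc'.testBit i) =
      F2Mat.bz (acc.testBit i) + ∑ j ∈ Finset.range n, ∑ m ∈ Finset.range n1,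
        ind (some (f^[m] (g^[j] z)) = some i) := by
  induction n generalizing z acc with
  | zero => exact ⟨acc, rfl, fun i => by simp⟩
  | succ n ih =>
    have e : vwalk2 g f n1 (n + 1) z acc k = vwalk f n1 z acc fun acc =>
      F2Mat.force (g z) fun z => vwalk2 g f n1 n z acc k := rfl
    rw [e]
    obtain ⟨acc1, h1, h2⟩ := vwalk_eq f n1 z acc (fun acc =>
      F2Mat.force (g z) fun z => vwalk2 g f n1 n z acc k)
    rw [h1, F2Mat.force_eq]
    obtain ⟨acc', h3, h4⟩ := ih (g z) acc1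
    refine ⟨acc', h3, fun i => ?_⟩
    rw [h4 i, h2 i, Finset.sum_range_succ' _ n, Function.iterate_zero_apply]
    simp only [Function.iterate_succ_apply]
    ring

/-- with several starting points -/
def vwalk3 (g f : ℕ → ℕ) (n1 n : ℕ) (L : List ℕ) : ℕ → (ℕ → Bool) → Bool :=
  @List.rec ℕ (fun _ => ℕ → (ℕ → Bool) → Bool) (fun acc k => k acc)
    (fun z _ ih acc k => vwalk2 g f n1 n z acc fun acc => ih acc k) L

theorem vwalk3_eq (g f : ℕ → ℕ) (n1 n : ℕ) (L : List ℕ) (acc : ℕ) (k : ℕ → Bool) :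
    ∃ acc', vwalk3 g f n1 n L acc k = k acc' ∧ ∀ i, F2Mat.bz (acc'.testBit i) =
      F2Mat.bz (acc.testBit i) + (L.map fun z => ∑ j ∈ Finset.range n, ∑ m ∈ Finset.range n1,
        ind (some (f^[m] (g^[j] z)) = some i)).sum := by
  induction L generalizing acc with
  | nil => exact ⟨acc, rfl, fun i => by simp⟩
  | cons z L ih =>
    have e : vwalk3 g f n1 n (z :: L) acc k = vwalk2 g f n1 n z acc fun acc =>
      vwalk3 g f n1 n L acc k := rfl
    rw [e]
    obtain ⟨acc1, h1, h2⟩ := vwalk2_eq g f n1 n z acc (fun acc => vwalk3 g f n1 n L acc k)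
    rw [h1]
    obtain ⟨acc', h3, h4⟩ := ih acc1
    refine ⟨acc', h3, fun i => ?_⟩
    rw [h4 i, h2 i, List.map_cons, List.sum_cons]
    ring

/-- the word of `q` and its inverse, as a matrix -/
def MQi : List ℕ := evM wqi

/-- the test of the final value -/
def vfin (acc : ℕ) : Bool :=
  (List.range 2048).all fun v => Nat.beq (Nat.land (Nat.shiftRight acc v) 1)
    (cond (sx (Nat.xor v 1010)) 1 0)

theorem vcover_ok : flist MQi (fun Q => vwalk3 (lin Q) (lin MPi) 11 5 (vl 3) 0 vfin) = true := by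
  decide +kernel

theorem qi_word : evG LD wqi = qM⁻¹ := by
  have h : evP LP wqi = Cfsg.Agent.H440.J4P.DuadTab.PQi := by decide +kernel
  have h1 := rep_word' wqi
  rw [h] at h1
  exact Cfsg.Agent.J4.Packed.rep_inj h1 rep_qi

theorem isMat_qi : IsMat (psi qM⁻¹) MQi := by
  rw [← qi_word]; exact isMat_ev _

theorem conj_iter {g : M24} {M : List ℕ} (h : IsMat (psi g⁻¹) M) (n v : ℕ) :
    (phi (g ^ n))⁻¹ * eJ v * phi (g ^ n) = eJ ((lin M)^[n] v) := by
  induction n with
  | zero => rw [pow_zero, map_one]; simp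
  | succ n ih =>
    rw [Function.iterate_succ_apply', ← conj_eJ h, ← ih, pow_succ, map_mul, map_inv]
    group

theorem vl3_lt : ∀ z ∈ vl 3, z < 2048 := by decide +kernel

/-- **Odd multiplicities** in the elementary abelian group. -/
theorem vcover {v : ℕ} (hv : v < 2048) (hs : sx (v ^^^ 1010) = true) :
    ((vl 3).map fun z => ∑ h ∈ Finset.range 55,
      ind ((phi (tau h))⁻¹ * eJ z * phi (tau h) = eJ v)).sum = 1 := by
  have h := vcover_ok
  rw [flist_eq] at h
  obtain ⟨acc, h1, h2⟩ := vwalk3_eq (lin MQi) (lin MPi) 11 5 (vl 3) 0 vfin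
  rw [h1] at h
  unfold vfin at h
  rw [List.all_eq_true] at h
  have h3 := h v (List.mem_range.2 hv)
  have hx : Nat.xor v 1010 = v ^^^ 1010 := rfl
  rw [hx, hs, cond_true] at h3
  have h4 : acc.testBit v = true := by
    have h5 := Nat.eq_of_beq_eq_true h3
    have h6 : (acc >>> v) &&& 1 = 1 := h5
    have h7 : acc.testBit v = (1 &&& (acc >>> v) != 0) := rfl
    rw [h7, Nat.and_comm, h6]
    rfl
  have h5 := h2 v
  rw [h4, F2Mat.bz_true, Nat.zero_testBit, F2Mat.bz_false, zero_add] at h5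
  rw [h5]
  refine congrArg List.sum (List.map_congr_left fun z hz => ?_)
  have hzlt : z < 2048 := vl3_lt z hz
  have h55 : (55 : ℕ) = 11 * 5 := by norm_num
  rw [h55, sum_range_mul]
  refine Finset.sum_congr rfl fun j hj => ?_
  refine Finset.sum_congr rfl fun k hk => ?_
  have hk2 := Finset.mem_range.1 hk
  have ht : tau (k + 11 * j) = qM ^ j * pM ^ k := by
    unfold tau
    rw [Nat.add_mul_div_left _ _ (by norm_num), Nat.div_eq_of_lt hk2, Nat.zero_add,
      Nat.add_mul_mod_self_left, Nat.mod_eq_of_lt hk2]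
  have e : (phi (tau (k + 11 * j)))⁻¹ * eJ z * phi (tau (k + 11 * j)) =
      eJ ((lin MPi)^[k] ((lin MQi)^[j] z)) := by
    rw [← conj_iter isMat_pi, ← conj_iter isMat_qi, ht, map_mul]
    group
  rw [e]
  have hlt : ∀ (M : List ℕ), (M.all fun a => Nat.blt a 2048) = true → ∀ n z, z < 2048 →
      (lin M)^[n] z < 2048 := by
    intro M hM n z hz
    rcases n with _ | n
    · exact hz
    · rw [Function.iterate_succ_apply']
      exact lin_lt_of hM _
  have h6 : (eJ ((lin MPi)^[k] ((lin MQi)^[j] z)) = eJ v) =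
      (some ((lin MPi)^[k] ((lin MQi)^[j] z)) = some v) := by
    rw [Option.some.injEq]
    apply propext
    constructor
    · intro h7
      exact eJ_inj (hlt _ (by decide +kernel) _ _ (hlt _ (by decide +kernel) _ _ hzlt)) hv h7
    · intro h7; rw [h7]
  rw [h6]

end Cfsg.Agent.H440.J4P.VLevel
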